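import Mathlib

/-!
Field facts for the presentations of `SL₂` and `PSL₂`: generation by squares, and a good square `a` with
`1 + a` a square.
-/

set_option autoImplicit false
set_option linter.unusedSectionVars false

namespace CfsgLib.SL2Pres

open Polynomial
open scoped IntermediateField

variable {F : Type*} [Field F] [Finite F] {p : ℕ} [Fact p.Prime] [Algebra (ZMod p) F]

/-- The square of a generator of `Fˣ` generates the field as a ring. -/
theorem aeval_sq_surjective {ω : Fˣ} (hω : ∀ x : Fˣ, x ∈ Subgroup.zpowers ω) :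
    Function.Surjective (aeval ((ω : F) ^ 2) : (ZMod p)[X] →ₐ[ZMod p] F) := by
  have hsq : ∀ y : F, y ^ 2 ∈ (aeval ((ω : F) ^ 2) : (ZMod p)[X] →ₐ[ZMod p] F).range := by
    intro y
    rcases eq_or_ne y 0 with rfl | hy
    · simp only [ne_eq, OfNat.ofNat_ne_zero, not_false_eq_true, zero_pow]
      exact zero_mem _
    · obtain ⟨k, hk⟩ := mem_powers_iff_mem_zpowers.2 (hω (Units.mk0 y hy))
      refine ⟨Polynomial.X ^ k, ?_⟩
      have h1 : (ω : F) ^ k = y := by
        rw [← Units.val_pow_eq_pow_val]; exact congrArg Units.val hk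
      show aeval ((ω : F) ^ 2) (Polynomial.X ^ k : (ZMod p)[X]) = y ^ 2
      rw [map_pow, aeval_X, ← pow_mul, mul_comm, pow_mul, h1]
  intro x
  by_cases h2 : (2 : F) = 0
  · haveI : CharP F 2 := CharTwo.of_one_ne_zero_of_two_eq_zero one_ne_zero h2
    obtain ⟨y, rfl⟩ := (FiniteField.isSquare_of_char_two (ringChar.eq F 2) x)
    rw [← sq]
    exact hsq y
  · obtain ⟨P, hP⟩ := hsq ((x + 1) / 2)
    obtain ⟨Q, hQ⟩ := hsq ((x - 1) / 2)
    refine ⟨P - Q, ?_⟩
    have hP' : aeval ((ω : F) ^ 2) P = ((x + 1) / 2) ^ 2 := hP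
    have hQ' : aeval ((ω : F) ^ 2) Q = ((x - 1) / 2) ^ 2 := hQ
    rw [map_sub, hP', hQ']
    field_simp
    ring

/-- A surjective evaluation has a minimal polynomial of full degree. -/
theorem natDegree_minpoly_eq {g : F} (hg : Function.Surjective (aeval g : (ZMod p)[X] →ₐ[ZMod p] F)) :
    (minpoly (ZMod p) g).natDegree = Module.finrank (ZMod p) F := by
  haveI : Module.Finite (ZMod p) F := Module.Finite.of_finite
  have hint : IsIntegral (ZMod p) g := IsIntegral.of_finite (ZMod p) g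
  rw [← IntermediateField.adjoin.finrank hint]
  have htop : (ZMod p)⟮g⟯ = ⊤ := by
    refine eq_top_iff.2 fun x _ => ?_
    obtain ⟨P, rfl⟩ := hg x
    exact IntermediateField.algebra_adjoin_le_adjoin _ _ (aeval_mem_adjoin_singleton _ _)
  rw [htop, IntermediateField.finrank_top']

/-- For degree at least three, `a = ((ω - ω⁻¹)/2)²` generates the field. -/
theorem exists_good_square (hp : p ≠ 2) (hn : 3 ≤ Module.finrank (ZMod p) F) {ω : Fˣ}
    (hω : ∀ x : Fˣ, x ∈ Subgroup.zpowers ω) :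
    ∃ (a : F) (i j : ℕ), ((ω : F) ^ 2) ^ i = a ∧ ((ω : F) ^ 2) ^ j = 1 + a ∧
      Function.Surjective (aeval a : (ZMod p)[X] →ₐ[ZMod p] F) := by
  classical
  haveI : CharP F p := (Algebra.charP_iff (ZMod p) F p).1 (ZMod.charP p)
  haveI : Fintype F := Fintype.ofFinite F
  haveI : Module.Finite (ZMod p) F := Module.Finite.of_finite
  have h2 : (2 : F) ≠ 0 := Ring.two_ne_zero (by rwa [ringChar.eq F p])
  have hp3 : 3 ≤ p := by have := (Fact.out : p.Prime).two_le; omega
  set q := Nat.card F with hq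
  have hqp : q = p ^ Module.finrank (ZMod p) F := by
    rw [hq, Module.natCard_eq_pow_finrank (K := ZMod p), Nat.card_zmod]
  have hq27 : 27 ≤ q := by
    rw [hqp]
    calc 27 = 3 ^ 3 := by norm_num
      _ ≤ p ^ 3 := Nat.pow_le_pow_left hp3 3
      _ ≤ _ := Nat.pow_le_pow_right (by omega) hn
  have hord : orderOf ω = q - 1 := by
    rw [orderOf_eq_card_of_forall_mem_zpowers hω, Nat.card_units]
  have hsmall : ∀ k : ℕ, 0 < k → k < q - 1 → (ω : F) ^ k ≠ 1 := by
    intro k hk hlt he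
    have : ω ^ k = 1 := Units.ext (by simpa using he)
    have := Nat.le_of_dvd hk (orderOf_dvd_of_pow_eq_one this)
    omega
  have hw0 : (ω : F) ≠ 0 := ω.ne_zero
  set b : F := ((ω : F) + (ω : F)⁻¹) / 2 with hb
  set c : F := ((ω : F) - (ω : F)⁻¹) / 2 with hc
  have hc0 : c ≠ 0 := by
    intro h
    refine hsmall 2 (by norm_num) (by omega) ?_
    rw [hc] at h
    field_simp at h
    linear_combination h
  have hb0 : b ≠ 0 := by
    intro h
    refine hsmall 4 (by norm_num) (by omega) ?_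
    rw [hb] at h
    field_simp at h
    linear_combination ((ω : F) ^ 2 - 1) * h
  have hpowsq : ∀ y : F, y ≠ 0 → ∃ i : ℕ, ((ω : F) ^ 2) ^ i = y ^ 2 := fun y hy => by
    obtain ⟨i, hi⟩ := mem_powers_iff_mem_zpowers.2 (hω (Units.mk0 y hy))
    refine ⟨i, ?_⟩
    have h1 : (ω : F) ^ i = y := by rw [← Units.val_pow_eq_pow_val]; exact congrArg Units.val hi
    rw [← pow_mul, mul_comm, pow_mul, h1]
  obtain ⟨i, hi⟩ := hpowsq c hc0
  obtain ⟨j, hj⟩ := hpowsq b hb0
  refine ⟨c ^ 2, i, j, hi, by rw [hj, hb, hc]; field_simp; ring, ?_⟩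
  have hint : IsIntegral (ZMod p) (c ^ 2) := IsIntegral.of_finite (ZMod p) _
  set K := (ZMod p)⟮c ^ 2⟯ with hK
  suffices hKtop : K = ⊤ by
    intro x
    have hx : x ∈ K.toSubalgebra := by rw [hKtop]; exact Algebra.mem_top
    rw [hK, IntermediateField.adjoin_simple_toSubalgebra_of_isAlgebraic hint.isAlgebraic,
      Algebra.adjoin_singleton_eq_range_aeval] at hx
    exact hx
  by_contra hne
  haveI : Fintype K := Fintype.ofFinite K
  set Q := Nat.card K with hQ
  have hQ2 : Q ^ 2 ≤ q := by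
    have hd : 1 < Module.finrank K F := by
      rcases Nat.lt_or_ge 1 (Module.finrank K F) with h | h
      · exact h
      · have := Module.finrank_pos (R := K) (M := F)
        exact absurd (IntermediateField.finrank_eq_one_iff_eq_top.1 (le_antisymm h this)) hne
    rw [hq, Module.natCard_eq_pow_finrank (K := K) (V := F)]
    exact Nat.pow_le_pow_right Nat.card_pos hd
  set x : F := (ω : F) ^ 2 with hx
  have hx0 : x ≠ 0 := pow_ne_zero _ hw0
  have hmem : x + x⁻¹ ∈ K := by
    have h1 : x + x⁻¹ = 4 * c ^ 2 + 2 := by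
      rw [hx, hc]; field_simp; ring
    rw [h1]
    exact add_mem (mul_mem (ofNat_mem K 4) (IntermediateField.mem_adjoin_simple_self _ _)) (ofNat_mem K 2)
  have hfix : (x + x⁻¹) ^ Q = x + x⁻¹ := by
    have := congrArg (fun z : K => (z : F)) (FiniteField.pow_card (⟨x + x⁻¹, hmem⟩ : K))
    rw [hQ, Nat.card_eq_fintype_card]
    simpa using this
  obtain ⟨m, hm⟩ : ∃ m : ℕ, Q = p ^ m := ⟨_, by rw [hQ, Module.natCard_eq_pow_finrank (K := ZMod p), Nat.card_zmod]⟩
  have hfix' : x ^ Q + (x ^ Q)⁻¹ = x + x⁻¹ := by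
    rw [← hfix, hm, add_pow_char_pow, inv_pow]
  have hor : x ^ Q = x ∨ x ^ Q * x = 1 := by
    have h1 : (x ^ Q - x) * (x ^ Q * x - 1) = 0 := by
      have hxQ : x ^ Q ≠ 0 := pow_ne_zero _ hx0
      field_simp at hfix'
      linear_combination hfix'
    rcases mul_eq_zero.1 h1 with h | h
    · exact Or.inl (sub_eq_zero.1 h)
    · exact Or.inr (sub_eq_zero.1 h)
  have hQ5 : Q * Q ≤ q := by rwa [← sq]
  have hQ1 : 2 ≤ Q := Finite.one_lt_card
  have hbound : 2 * (Q + 1) < q - 1 := by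
    rcases Nat.lt_or_ge Q 5 with h | h
    · omega
    · have := Nat.mul_le_mul_right Q h
      omega
  rcases hor with h | h
  · refine hsmall (2 * (Q - 1)) (by omega) (by omega) ?_
    rw [pow_mul, ← hx]
    refine mul_right_cancel₀ hx0 ?_
    rw [← pow_succ, Nat.sub_add_cancel (by omega), one_mul, h]
  · refine hsmall (2 * (Q + 1)) (by omega) hbound ?_
    rw [pow_mul, ← hx, pow_succ, h]

/-- A polynomial in `a` equal to `g`, divisible by the cofactor of the minimal polynomial of `a`. -/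
theorem exists_cofactor {g a : F} (ha : Function.Surjective (aeval a : (ZMod p)[X] →ₐ[ZMod p] F)) {L : ℕ}
    (hLp : (L : ZMod p) ≠ 0) (haL : a ^ L = 1) :
    ∃ G₀ : (ZMod p)[X], aeval a G₀ = g ∧
      ∀ C : (ZMod p)[X], minpoly (ZMod p) a * C = Polynomial.X ^ L - 1 → C ∣ G₀ := by
  obtain ⟨g₀, hg₀⟩ := ha g
  obtain ⟨C, hC⟩ : minpoly (ZMod p) a ∣ Polynomial.X ^ L - 1 := minpoly.dvd _ _ (by simp [haL])
  have hsep : (Polynomial.X ^ L - 1 : (ZMod p)[X]).Separable := by
    have := Polynomial.separable_X_pow_sub_C (1 : ZMod p) hLp one_ne_zero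
    rwa [map_one] at this
  rw [hC] at hsep
  obtain ⟨r, s, hrs⟩ := hsep.isCoprime
  refine ⟨g₀ * s * C, ?_, fun C' hC' => ?_⟩
  · have h1 : aeval a (s * C) = 1 := by
      have := congrArg (aeval a) hrs
      rwa [map_add, map_mul (aeval a) r, minpoly.aeval, mul_zero, zero_add, map_one] at this
    rw [mul_assoc, map_mul, h1, mul_one, hg₀]
  · haveI : Module.Finite (ZMod p) F := Module.Finite.of_finite
    have h0 : minpoly (ZMod p) a ≠ 0 := minpoly.ne_zero (IsIntegral.of_finite (ZMod p) a)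
    rw [mul_left_cancel₀ h0 (hC'.trans hC)]
    exact dvd_mul_left _ _

end CfsgLib.SL2Pres
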