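import Mathlib

/-!
A group with the Steinberg-type relations of `SL₂(F)` is covered by its Bruhat cells.
-/

set_option autoImplicit false

namespace CfsgLib.SL2Pres

/-- A unit and its inverse negated: `-t⁻¹`. -/
def negInv {F : Type*} [Field F] (t : Fˣ) : Fˣ := -t⁻¹

/-- If the relations of `SL₂` hold for `X`, `H`, `w`, the group has at most `|H(Fˣ)| q (q + 1)` elements. -/
theorem card_le {F : Type*} [Field F] [Finite F] {G : Type*} [Group G] (X : F → G) (H : Fˣ →* G) (w : G)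
    (hX : ∀ s t, X (s + t) = X s * X t)
    (hHX : ∀ (s : Fˣ) t, H s * X t * (H s)⁻¹ = X ((s : F) ^ 2 * t))
    (hwH : ∀ s, w * H s * w⁻¹ = H s⁻¹) (hw : w * w = H (-1))
    (hgen : Subgroup.closure (Set.range X ∪ Set.range H ∪ {w}) = ⊤)
    (ν : Fˣ) (hν : ∀ t : Fˣ, ∃ s : Fˣ, t = s ^ 2 ∨ t = s ^ 2 * ν)
    (hR : ∀ t ∈ ({1, ν} : Set Fˣ), w * X t * w = X (negInv t : Fˣ) * H (negInv t) * w * X (negInv t : Fˣ)) :
    Finite G ∧ Nat.card G ≤ Nat.card H.range * Nat.card F * (Nat.card F + 1) := by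
  classical
  have hX0 : X 0 = 1 := by
    have := hX 0 0
    rw [add_zero] at this
    exact mul_eq_left.1 this.symm
  have hXH : ∀ (t : F) (s : Fˣ), X t * H s = H s * X (((s⁻¹ : Fˣ) : F) ^ 2 * t) := by
    intro t s
    have := hHX s (((s⁻¹ : Fˣ) : F) ^ 2 * t)
    rw [← mul_assoc, ← mul_pow, ← Units.val_mul, mul_inv_cancel, Units.val_one, one_pow, one_mul] at this
    rw [← this, inv_mul_cancel_right]
  have hHX' : ∀ (s : Fˣ) (t : F), H s * X t = X ((s : F) ^ 2 * t) * H s := fun s t => by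
    rw [← hHX, inv_mul_cancel_right]
  have hwH' : ∀ s, w * H s = H s⁻¹ * w := fun s => by rw [← hwH, inv_mul_cancel_right]
  have hwinv : w⁻¹ = w * H (-1) := by
    refine inv_eq_of_mul_eq_one_right ?_
    rw [← mul_assoc, hw, ← map_mul, neg_one_mul, neg_neg, map_one]
  have hRall : ∀ t : Fˣ, w * X t * w = X (negInv t : Fˣ) * H (negInv t) * w * X (negInv t : Fˣ) := by
    intro t
    have key : ∀ (s t : Fˣ), w * X t * w = X (negInv t : Fˣ) * H (negInv t) * w * X (negInv t : Fˣ) →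
        w * X ((s ^ 2 * t : Fˣ) : F) * w = X (negInv (s ^ 2 * t) : Fˣ) * H (negInv (s ^ 2 * t)) * w *
          X (negInv (s ^ 2 * t) : Fˣ) := by
      intro s t ht
      have e1 : (((s ^ 2 * t : Fˣ)) : F) = (s : F) ^ 2 * t := by push_cast; ring
      have e2 : ((negInv (s ^ 2 * t) : Fˣ) : F) = ((s⁻¹ : Fˣ) : F) ^ 2 * (negInv t : Fˣ) := by
        simp only [negInv, mul_inv, Units.val_neg, Units.val_mul, ← inv_pow, Units.val_pow_eq_pow_val]
        ring
      have e3 : negInv (s ^ 2 * t) = s⁻¹ * (negInv t * s⁻¹) := Units.ext (by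
        simp only [negInv, mul_inv, Units.val_neg, Units.val_mul, ← inv_pow, Units.val_pow_eq_pow_val]
        ring)
      set c := negInv t with hc
      rw [e1, e2, e3, ← hHX s t]
      calc w * (H s * X t * (H s)⁻¹) * w = (w * H s) * X t * (H s⁻¹ * w) := by rw [map_inv]; group
        _ = (H s⁻¹ * w) * X t * (w * H s) := by rw [hwH' s]
        _ = H s⁻¹ * (w * X t * w) * H s := by group
        _ = (H s⁻¹ * X c) * H c * w * (X c * H s) := by rw [ht]; group
        _ = X (((s⁻¹ : Fˣ) : F) ^ 2 * c) * H s⁻¹ * H c * (w * H s) * X (((s⁻¹ : Fˣ) : F) ^ 2 * c) := by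
            rw [hHX' s⁻¹ c, hXH c s]; group
        _ = _ := by rw [hwH', map_mul, map_mul]; group
    obtain ⟨s, rfl | rfl⟩ := hν t
    · have := key s 1 (hR 1 (by simp))
      rwa [mul_one] at this
    · exact key s ν (hR ν (by simp))
  -- the cells
  let Hs := H.range
  let cell : F × Hs ⊕ F × Hs × F → G := Sum.elim (fun p => X p.1 * (p.2 : G))
    (fun p => X p.1 * (p.2.1 : G) * w * X p.2.2)
  let S := Set.range cell
  have hX1 : ∀ g ∈ S, ∀ b, g * X b ∈ S := by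
    rintro _ ⟨(⟨a, ⟨_, s, rfl⟩⟩ | ⟨a, h, c⟩), rfl⟩ b
    · refine ⟨Sum.inl (a + (s : F) ^ 2 * b, ⟨H s, s, rfl⟩), ?_⟩
      show X _ * H s = X a * H s * X b
      rw [hX, mul_assoc (X a) (H s), hHX', mul_assoc]
    · refine ⟨Sum.inr (a, h, c + b), ?_⟩
      show X a * (h : G) * w * X (c + b) = X a * (h : G) * w * X c * X b
      rw [hX]; simp only [mul_assoc]
  have hH1 : ∀ g ∈ S, ∀ r, g * H r ∈ S := by
    rintro _ ⟨(⟨a, ⟨_, s, rfl⟩⟩ | ⟨a, ⟨_, s, rfl⟩, c⟩), rfl⟩ r
    · refine ⟨Sum.inl (a, ⟨H (s * r), _, rfl⟩), ?_⟩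
      show X a * H (s * r) = X a * H s * H r
      rw [map_mul, mul_assoc]
    · refine ⟨Sum.inr (a, ⟨H (s * r⁻¹), _, rfl⟩, ((r⁻¹ : Fˣ) : F) ^ 2 * c), ?_⟩
      show X a * H (s * r⁻¹) * w * X (((r⁻¹ : Fˣ) : F) ^ 2 * c) = X a * H s * w * X c * H r
      calc X a * H (s * r⁻¹) * w * X (((r⁻¹ : Fˣ) : F) ^ 2 * c)
          = X a * H s * (H r⁻¹ * w) * X (((r⁻¹ : Fˣ) : F) ^ 2 * c) := by rw [map_mul]; group
        _ = X a * H s * w * (H r * X (((r⁻¹ : Fˣ) : F) ^ 2 * c)) := by rw [← hwH']; group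
        _ = X a * H s * w * X c * H r := by rw [← hXH]; group
  have hw1 : ∀ g ∈ S, g * w ∈ S := by
    rintro _ ⟨(⟨a, h⟩ | ⟨a, ⟨_, s, rfl⟩, c⟩), rfl⟩
    · exact ⟨Sum.inr (a, h, 0), by show X a * (h : G) * w * X 0 = _; rw [hX0, mul_one]; rfl⟩
    by_cases hc : c = 0
    · refine ⟨Sum.inl (a, ⟨H (s * -1), _, rfl⟩), ?_⟩
      show X a * H (s * -1) = X a * H s * w * X c * w
      rw [hc, hX0, mul_one, map_mul, ← hw]; simp only [mul_assoc]
    · set t : Fˣ := Units.mk0 c hc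
      have h1 := hRall t
      refine ⟨Sum.inr (a + (s : F) ^ 2 * (negInv t : Fˣ), ⟨H (s * negInv t), _, rfl⟩, (negInv t : Fˣ)), ?_⟩
      show X (a + (s : F) ^ 2 * (negInv t : Fˣ)) * H (s * negInv t) * w * X (negInv t : Fˣ) = X a * H s * w * X (t : F) * w
      rw [show X a * H s * w * X (t : F) * w = X a * H s * (w * X (t : F) * w) by simp only [mul_assoc], h1,
        hX, map_mul]
      calc X a * X ((s : F) ^ 2 * (negInv t : Fˣ)) * (H s * H (negInv t)) * w * X (negInv t : Fˣ)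
          = X a * (X ((s : F) ^ 2 * (negInv t : Fˣ)) * H s) * H (negInv t) * w * X (negInv t : Fˣ) := by group
        _ = X a * (H s * X (negInv t : Fˣ)) * H (negInv t) * w * X (negInv t : Fˣ) := by rw [hHX']
        _ = _ := by group
  have hall : ∀ g, g ∈ S := by
    intro g
    have hg : g ∈ Subgroup.closure (Set.range X ∪ Set.range H ∪ {w}) := hgen ▸ Subgroup.mem_top g
    induction hg using Subgroup.closure_induction_right with
    | one => exact ⟨Sum.inl (0, ⟨1, 1, map_one H⟩), by show X 0 * 1 = 1; rw [hX0, one_mul]⟩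
    | mul_right x hx y hy ih =>
      rcases hy with (⟨b, rfl⟩ | ⟨r, rfl⟩) | hy
      · exact hX1 _ ih b
      · exact hH1 _ ih r
      · rw [Set.mem_singleton_iff.1 hy]; exact hw1 _ ih
    | mul_inv_cancel x hx y hy ih =>
      rcases hy with (⟨b, rfl⟩ | ⟨r, rfl⟩) | hy
      · have e : (X b)⁻¹ = X (-b) := inv_eq_of_mul_eq_one_right (by rw [← hX, add_neg_cancel, hX0])
        rw [e]; exact hX1 _ ih _
      · rw [← map_inv]; exact hH1 _ ih _
      · rw [Set.mem_singleton_iff.1 hy, hwinv, ← mul_assoc]; exact hH1 _ (hw1 _ ih) _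
  haveI : Finite Hs := Finite.of_surjective H.rangeRestrict H.rangeRestrict_surjective
  have hsurj : Function.Surjective cell := hall
  refine ⟨Finite.of_surjective cell hsurj, le_of_le_of_eq (Nat.card_le_card_of_surjective cell hsurj) ?_⟩
  rw [Nat.card_sum, Nat.card_prod, Nat.card_prod, Nat.card_prod]
  ring

end CfsgLib.SL2Pres
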