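import Cfsg.Agent.Lib.SL2Pres.Borel
import Cfsg.Agent.Lib.SL2Pres.Bruhat

/-!
From the relations to the order bound, and the matching identities in `SL₂(F)`.
-/

set_option autoImplicit false
set_option linter.unusedSectionVars false

namespace CfsgLib.SL2Pres

open Matrix
open scoped MatrixGroups

variable {F : Type*} [Field F] [Finite F]

/-- A generator of `Fˣ` and the log of `-1`. -/
theorem exists_pow_eq {ω : Fˣ} (hω : ∀ x : Fˣ, x ∈ Subgroup.zpowers ω) (t : Fˣ) : ∃ k : ℕ, ω ^ k = t := by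
  haveI : Finite Fˣ := inferInstance
  exact mem_powers_iff_mem_zpowers.2 (hω t)

theorem card_le_of_rels {G : Type*} [Group G] {ω : Fˣ} (hω : ∀ x : Fˣ, x ∈ Subgroup.zpowers ω)
    {u h w : G} (hgen : Subgroup.closure ({u, h, w} : Set G) = ⊤) {X : F → G}
    (hX : IsUnip u h ((ω : F) ^ 2) X) {N₀ k : ℕ} (hN₀ : ω ^ N₀ = -1) (hk : ω ^ k = negInv ω)
    (hL : h ^ orderOf ω = 1) (hwh : w * h * w⁻¹ = h⁻¹) (hw : w * w = h ^ N₀)
    (hR1 : w * u * w = u⁻¹ * h ^ N₀ * w * u⁻¹)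
    (hRν : (∀ t : Fˣ, IsSquare t) ∨ w * X ω * w = X (negInv ω : Fˣ) * h ^ k * w * X (negInv ω : Fˣ)) :
    Finite G ∧ Nat.card G ≤ orderOf h * Nat.card F * (Nat.card F + 1) := by
  classical
  let H : Fˣ →* G := monoidHomOfForallMemZpowers hω (g' := h) (orderOf_dvd_of_pow_eq_one hL)
  have hHω : H ω = h := monoidHomOfForallMemZpowers_apply_gen _ _
  have hHpow : ∀ n : ℕ, H (ω ^ n) = h ^ n := fun n => by rw [map_pow, hHω]
  have hrange : H.range = Subgroup.zpowers h := by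
    refine le_antisymm ?_ (Subgroup.zpowers_le.2 ⟨ω, hHω⟩)
    rintro _ ⟨t, rfl⟩
    obtain ⟨n, rfl⟩ := exists_pow_eq hω t
    rw [hHpow]
    exact pow_mem (Subgroup.mem_zpowers h) n
  have hwpow : ∀ n : ℕ, w * h ^ n * w⁻¹ = (h ^ n)⁻¹ := fun n => by
    rw [← MulAut.conj_apply, map_pow, MulAut.conj_apply, hwh, inv_pow]
  have hcard := card_le X H w hX.add (fun s t => by
      obtain ⟨n, rfl⟩ := exists_pow_eq hω s
      rw [hHpow, hX.pow_conj, Units.val_pow_eq_pow_val, ← pow_mul, ← pow_mul, mul_comm n 2])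
    (fun s => by
      obtain ⟨n, rfl⟩ := exists_pow_eq hω s
      rw [map_inv, hHpow, hwpow])
    (by rw [← hN₀, hHpow, hw])
    (by
      refine eq_top_iff.2 (hgen.ge.trans ?_)
      rw [Subgroup.closure_le]
      intro x hx
      simp only [Set.mem_insert_iff, Set.mem_singleton_iff] at hx
      refine Subgroup.subset_closure ?_
      rcases hx with rfl | rfl | rfl
      · exact Or.inl (Or.inl ⟨1, hX.one⟩)
      · exact Or.inl (Or.inr ⟨ω, hHω⟩)
      · exact Or.inr rfl)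
    (if ∀ t : Fˣ, IsSquare t then 1 else ω) (fun t => by
      split
      · next hsq =>
        obtain ⟨s, rfl⟩ := hsq t
        exact ⟨s, Or.inl (sq s).symm⟩
      obtain ⟨n, rfl⟩ := exists_pow_eq hω t
      rcases Nat.even_or_odd n with ⟨m, rfl⟩ | ⟨m, rfl⟩
      · exact ⟨ω ^ m, Or.inl (by rw [← pow_mul, mul_comm, two_mul])⟩
      · exact ⟨ω ^ m, Or.inr (by rw [← pow_mul, ← pow_succ, mul_comm m 2])⟩)
    (by
      intro t ht
      have hone : w * X ((1 : Fˣ) : F) * w =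
          X (negInv (1 : Fˣ) : Fˣ) * H (negInv 1) * w * X (negInv (1 : Fˣ) : Fˣ) := by
        have e : negInv (1 : Fˣ) = -1 := by simp [negInv]
        rw [e, ← hN₀, hHpow, hN₀, Units.val_neg, Units.val_one, hX.neg, hX.one]
        exact hR1
      simp only [Set.mem_insert_iff, Set.mem_singleton_iff] at ht
      rcases ht with rfl | rfl
      · exact hone
      · by_cases hsq : ∀ t : Fˣ, IsSquare t
        · rw [if_pos hsq]; exact hone
        · rw [if_neg hsq, ← hk, hHpow, hk]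
          exact hRν.resolve_left hsq)
  rw [hrange, Nat.card_zpowers] at hcard
  exact hcard

/-- `[[1, t], [0, 1]]`. -/
def xS (t : F) : SL(2, F) := ⟨!![1, t; 0, 1], by simp [Matrix.det_fin_two]⟩

/-- `[[1, 0], [t, 1]]`. -/
def yS (t : F) : SL(2, F) := ⟨!![1, 0; t, 1], by simp [Matrix.det_fin_two]⟩

/-- `[[0, 1], [-1, 0]]`. -/
def wS : SL(2, F) := ⟨!![0, 1; -1, 0], by simp [Matrix.det_fin_two]⟩

theorem coe_xS (t : F) : (xS t : Matrix (Fin 2) (Fin 2) F) = !![1, t; 0, 1] := rfl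

theorem coe_yS (t : F) : (yS t : Matrix (Fin 2) (Fin 2) F) = !![1, 0; t, 1] := rfl

theorem coe_wS : ((wS : SL(2, F)) : Matrix (Fin 2) (Fin 2) F) = !![0, 1; -1, 0] := rfl

/-- `diag(s, s⁻¹)` as a matrix of determinant one. -/
def dS' (s : Fˣ) : SL(2, F) := ⟨!![(s : F), 0; 0, ((s⁻¹ : Fˣ) : F)], by simp [Matrix.det_fin_two]⟩

theorem coe_dS' (s : Fˣ) :
    (dS' s : Matrix (Fin 2) (Fin 2) F) = !![(s : F), 0; 0, ((s⁻¹ : Fˣ) : F)] := rfl

/-- `diag(s, s⁻¹)`. -/
def dS : Fˣ →* SL(2, F) :=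
  MonoidHom.mk' dS' fun s t => Matrix.SpecialLinearGroup.ext _ _ fun i j => by
    fin_cases i <;> fin_cases j <;>
      simp [coe_dS', Matrix.SpecialLinearGroup.coe_mul, Matrix.mul_apply, Fin.sum_univ_two, mul_comm]

theorem coe_dS (s : Fˣ) :
    (dS s : Matrix (Fin 2) (Fin 2) F) = !![(s : F), 0; 0, ((s⁻¹ : Fˣ) : F)] := rfl

theorem xS_add (s t : F) : xS (s + t) = xS s * xS t := by
  refine Matrix.SpecialLinearGroup.ext _ _ fun i j => ?_
  fin_cases i <;> fin_cases j <;>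
    simp [coe_xS, Matrix.SpecialLinearGroup.coe_mul, Matrix.mul_apply, Fin.sum_univ_two, add_comm]

theorem dS_xS (s : Fˣ) (t : F) : dS s * xS t * (dS s)⁻¹ = xS ((s : F) ^ 2 * t) := by
  rw [← map_inv]
  refine Matrix.SpecialLinearGroup.ext _ _ fun i j => ?_
  fin_cases i <;> fin_cases j <;>
    simp [coe_dS, coe_xS, Matrix.SpecialLinearGroup.coe_mul, Matrix.mul_apply, Fin.sum_univ_two] <;> ring

theorem wS_mul_wS : (wS : SL(2, F)) * wS = dS (-1) := by
  refine Matrix.SpecialLinearGroup.ext _ _ fun i j => ?_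
  fin_cases i <;> fin_cases j <;>
    simp [coe_dS, coe_wS, Matrix.SpecialLinearGroup.coe_mul, Matrix.mul_apply, Fin.sum_univ_two]

theorem wS_dS (s : Fˣ) : wS * dS s * (wS : SL(2, F))⁻¹ = dS s⁻¹ := by
  rw [mul_inv_eq_iff_eq_mul]
  refine Matrix.SpecialLinearGroup.ext _ _ fun i j => ?_
  fin_cases i <;> fin_cases j <;>
    simp [coe_dS, coe_wS, Matrix.SpecialLinearGroup.coe_mul, Matrix.mul_apply, Fin.sum_univ_two]

theorem coe_negInv (t : Fˣ) : ((negInv t : Fˣ) : F) = -(t : F)⁻¹ := by simp [negInv]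

theorem wS_xS_wS (t : Fˣ) :
    wS * xS (t : F) * wS =
      xS ((negInv t : Fˣ) : F) * dS (negInv t) * wS * xS ((negInv t : Fˣ) : F) := by
  have ht : (t : F) ≠ 0 := t.ne_zero
  refine Matrix.SpecialLinearGroup.ext _ _ fun i j => ?_
  fin_cases i <;> fin_cases j <;>
    simp [coe_dS, coe_wS, coe_xS, coe_negInv, Units.val_inv_eq_inv_val, Matrix.SpecialLinearGroup.coe_mul,
      Matrix.mul_apply, Fin.sum_univ_two]

theorem isUnip_SL (ω : Fˣ) : IsUnip (xS 1) (dS ω) ((ω : F) ^ 2) (xS : F → SL(2, F)) :=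
  ⟨xS_add, rfl, fun t => dS_xS ω t⟩

theorem closure_SL {S : Subgroup (SL(2, F))} (hx : ∀ t, xS t ∈ S) (hw : (wS : SL(2, F)) ∈ S) : S = ⊤ := by
  have hlow : ∀ t : F, yS t ∈ S := fun t => by
    have h1 : yS t = wS * xS (-t) * wS⁻¹ := by
      apply eq_mul_inv_of_mul_eq
      refine Matrix.SpecialLinearGroup.ext _ _ fun i j => ?_
      fin_cases i <;> fin_cases j <;>
        simp [coe_yS, coe_wS, coe_xS, Matrix.SpecialLinearGroup.coe_mul, Matrix.mul_apply, Fin.sum_univ_two]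
    rw [h1]
    exact mul_mem (mul_mem hw (hx _)) (inv_mem hw)
  have hne : ∀ g : SL(2, F), (g : Matrix (Fin 2) (Fin 2) F) 1 0 ≠ 0 → g ∈ S := fun g hc => by
    have hdet : (g : Matrix (Fin 2) (Fin 2) F) 0 0 * g 1 1 - g 0 1 * g 1 0 = 1 :=
      (Matrix.det_fin_two (g : Matrix (Fin 2) (Fin 2) F)).symm.trans g.2
    have h1 : g = xS ((g 0 0 - 1) / g 1 0) * yS (g 1 0) * xS ((g 1 1 - 1) / g 1 0) := by
      refine Matrix.SpecialLinearGroup.ext _ _ fun i j => ?_
      fin_cases i <;> fin_cases j <;>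
        simp [coe_xS, coe_yS, Matrix.SpecialLinearGroup.coe_mul, Matrix.mul_apply, Fin.sum_univ_two] <;>
        field_simp <;> first | ring1 | linear_combination -hdet | linear_combination hdet
    rw [h1]
    exact mul_mem (mul_mem (hx _) (hlow _)) (hx _)
  refine eq_top_iff.2 fun g _ => ?_
  by_cases hc : (g : Matrix (Fin 2) (Fin 2) F) 1 0 = 0
  · have h1 : g * wS ∈ S := by
      refine hne _ ?_
      have hdet : (g : Matrix (Fin 2) (Fin 2) F) 0 0 * g 1 1 - g 0 1 * g 1 0 = 1 :=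
        (Matrix.det_fin_two (g : Matrix (Fin 2) (Fin 2) F)).symm.trans g.2
      rw [hc, mul_zero, sub_zero] at hdet
      simp [coe_wS, Matrix.SpecialLinearGroup.coe_mul, Matrix.mul_apply, Fin.sum_univ_two]
      exact (right_ne_zero_of_mul_eq_one hdet)
    simpa using mul_mem h1 (inv_mem hw)
  · exact hne g hc

/-- Two groups: a presented group satisfying an order bound maps isomorphically. -/
theorem exists_presentation {T : Type*} [Group T] [Finite T] (rels : List (FreeGroup (Fin 3))) (f : Fin 3 → T)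
    (hrel : ∀ r ∈ rels, FreeGroup.lift f r = 1) (hgen : Subgroup.closure (Set.range f) = ⊤)
    (hcard : Finite (PresentedGroup {r | r ∈ rels}) ∧ Nat.card (PresentedGroup {r | r ∈ rels}) ≤ Nat.card T) {m : ℕ}
    (hm : rels.length ≤ m) :
    ∃ R : Finset (FreeGroup (Fin 3)), R.card ≤ m ∧
      Nonempty (PresentedGroup (↑R : Set (FreeGroup (Fin 3))) ≃* T) := by
  classical
  refine ⟨rels.toFinset, (List.toFinset_card_le _).trans hm, ?_⟩
  rw [List.coe_toFinset]
  haveI := hcard.1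
  let φ := PresentedGroup.toGroup (rels := {r | r ∈ rels}) (f := f) hrel
  have hsurj : Function.Surjective φ := by
    rw [← MonoidHom.range_eq_top, eq_top_iff, ← hgen, Subgroup.closure_le]
    rintro _ ⟨i, rfl⟩
    exact ⟨PresentedGroup.of i, PresentedGroup.toGroup.of _⟩
  exact ⟨MulEquiv.ofBijective φ (Nat.bijective_iff_surjective_and_card φ |>.2
    ⟨hsurj, le_antisymm hcard.2 (Nat.card_le_card_of_surjective φ hsurj)⟩)⟩

end CfsgLib.SL2Pres
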