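import Cfsg.Agent.Lib.SL2Pres.Words

/-!
Relations for the Borel subgroup: from a few relations between `u` and `h`, the conjugates of `u`
form the additive group of `F` with `h` acting as multiplication by `g`.
-/

set_option autoImplicit false
set_option linter.unusedSectionVars false

namespace CfsgLib.SL2Pres

open Polynomial

variable {G : Type*} [Group G] {F : Type*} [Field F] [Finite F] {p : ℕ} [Fact p.Prime] [Algebra (ZMod p) F]

/-- `X` is the unipotent subgroup: additive, `X 1 = u`, `h` multiplies by `g`. -/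
structure IsUnip (u h : G) (g : F) (X : F → G) : Prop where
  add : ∀ s t, X (s + t) = X s * X t
  one : X 1 = u
  conj : ∀ t, h * X t * h⁻¹ = X (g * t)

namespace IsUnip

variable {u h : G} {g : F} {X : F → G} (hX : IsUnip u h g X)
include hX

theorem zero : X 0 = 1 := by
  have := hX.add 0 0
  rw [add_zero] at this
  exact mul_eq_left.1 this.symm

theorem neg (t : F) : X (-t) = (X t)⁻¹ :=
  eq_inv_of_mul_eq_one_right (by rw [← hX.add, add_neg_cancel, hX.zero])

theorem nsmul (n : ℕ) (t : F) : X (n • t) = X t ^ n := by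
  induction n with
  | zero => rw [zero_smul, hX.zero, pow_zero]
  | succ n ih => rw [succ_nsmul, hX.add, ih, pow_succ]

theorem pow_conj (k : ℕ) (t : F) : h ^ k * X t * (h ^ k)⁻¹ = X (g ^ k * t) := by
  induction k with
  | zero => simp
  | succ k ih =>
    rw [pow_succ', pow_succ', mul_assoc g, ← hX.conj, ← ih]
    group

theorem pow_conj_one (k : ℕ) : h ^ k * u * (h ^ k)⁻¹ = X (g ^ k) := by
  rw [← hX.one, hX.pow_conj, mul_one]

theorem comm (s t : F) : X s * X t = X t * X s := by rw [← hX.add, ← hX.add, add_comm]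

theorem pval_eq (i : ℕ) (P : (ZMod p)[X]) : pval u h i P = X (aeval (g ^ i) P) := by
  let φ : Multiplicative F →* G := MonoidHom.mk' (fun t => X t.toAdd) fun s t => hX.add _ _
  have h1 : aeval (g ^ i) P = ((List.range (P.natDegree + 1)).map fun k => (P.coeff k).val • g ^ (i * k)).sum := by
    rw [aeval_eq_sum_range, ← List.sum_toFinset _ List.nodup_range, List.toFinset_range]
    refine Finset.sum_congr rfl fun k _ => ?_
    rw [← pow_mul]
    conv_lhs => rw [← ZMod.natCast_zmod_val (P.coeff k), Nat.cast_smul_eq_nsmul]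
  have h2 : ∀ l : List F, X l.sum = (l.map X).prod := fun l => by
    induction l with
    | nil => simpa using hX.zero
    | cons x l ih => rw [List.sum_cons, hX.add, ih, List.map_cons, List.prod_cons]
  rw [h1, h2, List.map_map, pval]
  congr 1
  refine List.map_congr_left fun k _ => ?_
  show _ = X ((P.coeff k).val • g ^ (i * k))
  rw [hX.nsmul, hX.pow_conj_one]

end IsUnip

/-- Multiples of a killed polynomial are killed. -/
theorem ev_mul {h : G} (ev : (ZMod p)[X] → G) (hadd : ∀ P Q, ev (P + Q) = ev P * ev Q)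
    (hmul : ∀ P, ev (Polynomial.X * P) = h * ev P * h⁻¹) {P : (ZMod p)[X]} (hP : ev P = 1) (Q : (ZMod p)[X]) :
    ev (Q * P) = 1 := by
  induction Q using Polynomial.induction_on with
  | C c =>
    have h0 : ∀ n : ℕ, ev ((n : (ZMod p)[X]) * P) = 1 := fun n => by
      induction n with
      | zero =>
        rw [Nat.cast_zero, zero_mul]
        have := hadd 0 0
        rw [add_zero] at this
        exact mul_eq_left.1 this.symm
      | succ n ih => rw [Nat.cast_succ, add_mul, one_mul, hadd, ih, hP, one_mul]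
    rw [← ZMod.natCast_zmod_val c, map_natCast]
    exact h0 _
  | add A B iA iB => rw [add_mul, hadd, iA, iB, one_mul]
  | monomial n c ih =>
    rw [pow_succ', show C c * (Polynomial.X * Polynomial.X ^ n) * P = Polynomial.X * (C c * Polynomial.X ^ n * P) by ring,
      hmul, ih, mul_one, mul_inv_cancel]

/-- If the minimal polynomial of `g` kills `u`, there is a unipotent subgroup. -/
theorem exists_isUnip {u h : G} {g : F} (hg : Function.Surjective (aeval g : (ZMod p)[X] →ₐ[ZMod p] F))
    (ev : (ZMod p)[X] → G) (hadd : ∀ P Q, ev (P + Q) = ev P * ev Q)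
    (hmul : ∀ P, ev (Polynomial.X * P) = h * ev P * h⁻¹) (hone : ev 1 = u)
    (hM : ev (minpoly (ZMod p) g) = 1) : ∃ X : F → G, IsUnip u h g X := by
  have hev : ∀ P Q, aeval g P = aeval g Q → ev P = ev Q := by
    intro P Q hPQ
    obtain ⟨R, hR⟩ := minpoly.dvd (ZMod p) g (show aeval g (P - Q) = 0 by rw [map_sub, hPQ, sub_self])
    rw [show P = Q + R * minpoly (ZMod p) g by rw [mul_comm, ← hR]; ring, hadd, ev_mul ev hadd hmul hM, mul_one]
  choose σ hσ using hg
  refine ⟨fun t => ev (σ t), ⟨fun s t => ?_, ?_, fun t => ?_⟩⟩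
  · show ev (σ (s + t)) = ev (σ s) * ev (σ t)
    rw [← hadd]
    exact hev _ _ (by rw [map_add, hσ, hσ, hσ])
  · show ev (σ 1) = u
    rw [← hone]
    exact hev _ _ (by rw [hσ, map_one])
  · show h * ev (σ t) * h⁻¹ = ev (σ (g * t))
    rw [← hmul]
    exact hev _ _ (by rw [map_mul, aeval_X, hσ, hσ])

/-- A commutative `h`-invariant subgroup containing `u`. -/
theorem commute_of_invariant {u h : G} (S : Subgroup G) (hS : IsMulCommutative S) (hu : u ∈ S)
    (hh : ∀ x ∈ S, h * x * h⁻¹ ∈ S) (k l : ℕ) : Commute (h ^ k * u * (h ^ k)⁻¹) (h ^ l * u * (h ^ l)⁻¹) := by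
  have hm : ∀ n : ℕ, h ^ n * u * (h ^ n)⁻¹ ∈ S := fun n => by
    induction n with
    | zero => simpa using hu
    | succ n ih =>
      rw [pow_succ', show h * h ^ n * u * (h * h ^ n)⁻¹ = h * (h ^ n * u * (h ^ n)⁻¹) * h⁻¹ by group]
      exact hh _ ih
  haveI := hS
  exact congrArg Subtype.val (mul_comm' (⟨_, hm k⟩ : S) ⟨_, hm l⟩)

theorem closure_invariant {c : G} {S : Set G} (h1 : ∀ x ∈ S, c * x * c⁻¹ ∈ Subgroup.closure S) :
    ∀ x ∈ Subgroup.closure S, c * x * c⁻¹ ∈ Subgroup.closure S := by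
  intro x hx
  induction hx using Subgroup.closure_induction with
  | mem y hy => exact h1 y hy
  | one => rw [mul_one, mul_inv_cancel]; exact one_mem _
  | mul y z _ _ iy iz => rw [show c * (y * z) * c⁻¹ = (c * y * c⁻¹) * (c * z * c⁻¹) by group]; exact mul_mem iy iz
  | inv y _ iy => rw [show c * y⁻¹ * c⁻¹ = (c * y * c⁻¹)⁻¹ by group]; exact inv_mem iy

/-- Degree at most two: `u^p`, `[u, hu]`, `h^n u` a word of degree `< n`. -/
theorem unip_small {u h : G} {g : F} (hg : Function.Surjective (aeval g : (ZMod p)[X] →ₐ[ZMod p] F))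
    {n : ℕ} (hn : n = 1 ∨ n = 2) (hdeg : (Polynomial.X ^ n - minpoly (ZMod p) g).natDegree < n)
    (r1 : u ^ p = 1) (r2 : Commute u (h * u * h⁻¹))
    (r3 : h ^ n * u * (h ^ n)⁻¹ = pval u h 1 (Polynomial.X ^ n - minpoly (ZMod p) g)) :
    ∃ X : F → G, IsUnip u h g X := by
  classical
  set P := Polynomial.X ^ n - minpoly (ZMod p) g
  set S : Set G := {u, h * u * h⁻¹}
  have hS : IsMulCommutative (Subgroup.closure S) := Subgroup.isMulCommutative_closure (by
    intro x hx y hy
    simp only [S, Set.mem_insert_iff, Set.mem_singleton_iff] at hx hy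
    rcases hx with rfl | rfl <;> rcases hy with rfl | rfl
    · rfl
    · exact r2
    · exact r2.symm
    · rfl)
  have hk : ∀ k : ℕ, k < n → h ^ k * u * (h ^ k)⁻¹ ∈ Subgroup.closure S := by
    intro k hk
    have : k = 0 ∨ k = 1 := by omega
    rcases this with rfl | rfl
    · exact Subgroup.subset_closure (by simp [S])
    · exact Subgroup.subset_closure (by simp [S])
  have hP : pval u h 1 P ∈ Subgroup.closure S := Subgroup.list_prod_mem _ fun x hx => by
    obtain ⟨k, hk', rfl⟩ := List.mem_map.1 hx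
    rw [List.mem_range] at hk'
    exact pow_mem (hk _ (by omega)) _
  have h1 : h * u * h⁻¹ ∈ Subgroup.closure S := Subgroup.subset_closure (by simp [S])
  have hinv : ∀ x ∈ Subgroup.closure S, h * x * h⁻¹ ∈ Subgroup.closure S := by
    refine closure_invariant fun x hx => ?_
    simp only [S, Set.mem_insert_iff, Set.mem_singleton_iff] at hx
    rcases hx with rfl | rfl
    · exact h1
    · rcases hn with rfl | rfl
      · rw [pow_one] at r3
        rw [r3]
        have hP0 : pval u h 1 P ∈ Subgroup.zpowers u := Subgroup.list_prod_mem _ fun x hx => by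
          obtain ⟨k, hk', rfl⟩ := List.mem_map.1 hx
          rw [List.mem_range] at hk'
          obtain rfl : k = 0 := by omega
          simp
        obtain ⟨z, hz⟩ := Subgroup.mem_zpowers_iff.1 hP0
        rw [← hz, ← MulAut.conj_apply, map_zpow, MulAut.conj_apply]
        exact zpow_mem h1 z
      · rw [show h * (h * u * h⁻¹) * h⁻¹ = h ^ 2 * u * (h ^ 2)⁻¹ by rw [pow_two]; group, r3]
        exact hP
  obtain ⟨ev, hadd, hmul, -, hone, hpv⟩ := exists_ev r1
    (commute_of_invariant _ hS (Subgroup.subset_closure (by simp [S])) hinv)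
  refine exists_isUnip hg ev hadd hmul hone ?_
  have h3 : ev (Polynomial.X ^ n) = ev P := by
    rw [show ev P = pval u h 1 P by rw [hpv, pow_one, comp_X], ← r3]
    clear r3 hdeg hn hk hP
    induction n with
    | zero => simp [hone]
    | succ n ih => rw [pow_succ', hmul, ih, pow_succ']; group
  have h4 := hadd P (minpoly (ZMod p) g)
  rw [show P + minpoly (ZMod p) g = Polynomial.X ^ n by simp [P], h3] at h4
  exact mul_eq_left.1 h4.symm

/-- Degree at least three. -/
theorem unip_large {u h : G} {g : F} (hg : Function.Surjective (aeval g : (ZMod p)[X] →ₐ[ZMod p] F))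
    {a : F} {L i j : ℕ} (hL : 0 < L) (hLp : (L : ZMod p) ≠ 0) (haL : a ^ L = 1) {G₀ : (ZMod p)[X]}
    (hG1 : aeval a G₀ = g)
    (hG2 : ∀ C : (ZMod p)[X], minpoly (ZMod p) a * C = Polynomial.X ^ L - 1 → C ∣ G₀)
    (hh : h ^ L = 1) (r1 : u ^ p = 1) (r2 : Commute u (h ^ i * u * (h ^ i)⁻¹))
    (r3 : h ^ j * u * (h ^ j)⁻¹ = u * (h ^ i * u * (h ^ i)⁻¹)) (r4 : h * u * h⁻¹ = pval u h i G₀) :
    ∃ X : F → G, IsUnip u h g X := by
  classical
  set A := h ^ i with hA
  set S : Set G := Set.range fun z : ℤ => A ^ z * u * (A ^ z)⁻¹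
  have hlat := commute_lattice ((Commute.refl h).pow_pow i j) r2 r3
  have hS : IsMulCommutative (Subgroup.closure S) := Subgroup.isMulCommutative_closure (by
    rintro _ ⟨y, rfl⟩ _ ⟨z, rfl⟩
    have := (hlat (z - y)).map (MulAut.conj (A ^ y))
    simp only [MulAut.conj_apply] at this
    rwa [show A ^ y * (A ^ (z - y) * u * (A ^ (z - y))⁻¹) * (A ^ y)⁻¹ = A ^ z * u * (A ^ z)⁻¹ by group] at this)
  have hmem : ∀ k : ℕ, h ^ (i * k) * u * (h ^ (i * k))⁻¹ ∈ Subgroup.closure S := fun k =>
    Subgroup.subset_closure ⟨k, by simp only [hA, zpow_natCast, pow_mul]⟩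
  have hAinv : ∀ z : ℤ, ∀ x ∈ Subgroup.closure S, A ^ z * x * (A ^ z)⁻¹ ∈ Subgroup.closure S := fun z => by
    refine closure_invariant fun x hx => ?_
    obtain ⟨y, rfl⟩ := hx
    exact Subgroup.subset_closure ⟨z + y, by simp only [zpow_add]; group⟩
  have hinv : ∀ x ∈ Subgroup.closure S, h * x * h⁻¹ ∈ Subgroup.closure S := by
    refine closure_invariant fun x hx => ?_
    obtain ⟨z, rfl⟩ := hx
    have hc : h * A ^ z = A ^ z * h := ((Commute.refl h).pow_right i).zpow_right z
    rw [show h * (A ^ z * u * (A ^ z)⁻¹) * h⁻¹ = (h * A ^ z) * u * (h * A ^ z)⁻¹ by group, hc,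
      show A ^ z * h * u * (A ^ z * h)⁻¹ = A ^ z * (h * u * h⁻¹) * (A ^ z)⁻¹ by group, r4]
    exact hAinv z _ (pval_mem G₀ _ hmem)
  obtain ⟨ev, hadd, hmul, -, hone, hpv⟩ := exists_ev r1
    (commute_of_invariant _ hS (Subgroup.subset_closure ⟨0, by simp⟩) hinv)
  refine exists_isUnip hg ev hadd hmul hone ?_
  have hev0 : ev 0 = 1 := by
    have := hadd 0 0
    rw [add_zero] at this
    exact mul_eq_left.1 this.symm
  have hpow : ∀ k : ℕ, ev (Polynomial.X ^ k) = h ^ k * u * (h ^ k)⁻¹ := fun k => by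
    induction k with
    | zero => simp [hone]
    | succ k ih => rw [pow_succ', hmul, ih, pow_succ']; group
  have hsub : ∀ P Q, ev P = ev Q → ev (P - Q) = 1 := fun P Q e => by
    have := hadd (P - Q) Q
    rw [sub_add_cancel, e] at this
    exact mul_eq_right.1 this.symm
  let I : Ideal (ZMod p)[X] :=
    { carrier := {P | ev P = 1}
      add_mem' := fun {P Q} hP hQ => by
        show ev (P + Q) = 1
        rw [hadd, show ev P = 1 from hP, show ev Q = 1 from hQ, one_mul]
      zero_mem' := hev0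
      smul_mem' := fun c P hP => ev_mul ev hadd hmul hP c }
  set π := Ideal.Quotient.mkₐ (ZMod p) I
  set x := π Polynomial.X with hx
  have hπ : ∀ P, aeval x P = π P := fun P => by rw [hx, aeval_algHom_apply, aeval_X_left_apply]
  have hxL : x ^ L = 1 := by
    rw [hx, ← map_pow, ← map_one π]
    refine Ideal.Quotient.eq.2 (hsub _ _ ?_)
    rw [hpow, hh, hone]; group
  set y := x ^ i with hy
  have hGy : aeval y G₀ = x := by
    rw [hy, hx, ← map_pow, aeval_algHom_apply]
    refine Ideal.Quotient.eq.2 (hsub _ _ ?_)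
    rw [← Polynomial.comp_eq_aeval, ← hpv, ← r4]
    have := hpow 1
    rw [pow_one, pow_one] at this
    exact this.symm
  obtain ⟨C, hC⟩ : minpoly (ZMod p) a ∣ Polynomial.X ^ L - 1 := minpoly.dvd _ _ (by simp [haL])
  obtain ⟨Q, hQ⟩ := hG2 C hC.symm
  have hMa : aeval y (minpoly (ZMod p) a) = 0 := by
    have h1 : aeval y (minpoly (ZMod p) a) * aeval y C = 0 := by
      rw [← map_mul, ← hC]
      rw [map_sub, map_pow, aeval_X, map_one, hy, ← pow_mul, mul_comm i L, pow_mul, hxL, one_pow, sub_self]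
    have h2 : IsUnit (aeval y C) := by
      refine isUnit_of_mul_isUnit_left (y := aeval y Q) ?_
      rw [← map_mul, ← hQ, hGy]
      exact IsUnit.of_mul_eq_one (x ^ (L - 1)) (by rw [← pow_succ', Nat.sub_add_cancel hL, hxL])
    exact h2.mul_left_eq_zero.1 h1
  have hM : π (minpoly (ZMod p) g) = 0 := by
    obtain ⟨R, hR⟩ : minpoly (ZMod p) a ∣ (minpoly (ZMod p) g).comp G₀ :=
      minpoly.dvd _ _ (by rw [aeval_comp, hG1, minpoly.aeval])
    rw [← hπ, ← hGy, ← aeval_comp, hR, map_mul, hMa, zero_mul]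
  exact Ideal.Quotient.eq_zero_iff_mem.1 hM

/-- Characteristic two: `u^2`, `h^j u = u (hu)`, and the word of the minimal polynomial equals `h^L`. -/
theorem unip_even [CharP F 2] (hp : p = 2) {u h : G} {g : F}
    (hg : Function.Surjective (aeval g : (ZMod p)[X] →ₐ[ZMod p] F)) {L j : ℕ}
    (r1 : u * u = 1) (r2 : h ^ j * u * (h ^ j)⁻¹ = u * (h * u * h⁻¹))
    (r3 : pval u h 1 (minpoly (ZMod p) g) = h ^ L) :
    (∃ X : F → G, IsUnip u h g X) ∧ h ^ L = 1 := by
  classical
  subst hp
  have hc : Commute u (h * u * h⁻¹) := by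
    have e1 : ∀ c : G, (c * u * c⁻¹) * (c * u * c⁻¹) = 1 := fun c => by
      rw [show c * u * c⁻¹ * (c * u * c⁻¹) = c * (u * u) * c⁻¹ by group, r1, mul_one, mul_inv_cancel]
    have e2 := e1 (h ^ j)
    rw [r2] at e2
    show u * (h * u * h⁻¹) = h * u * h⁻¹ * u
    calc u * (h * u * h⁻¹) = (u * (h * u * h⁻¹))⁻¹ := (inv_eq_of_mul_eq_one_right e2).symm
      _ = (h * u * h⁻¹)⁻¹ * u⁻¹ := mul_inv_rev _ _
      _ = _ := by rw [inv_eq_of_mul_eq_one_right (e1 h), inv_eq_of_mul_eq_one_right r1]
  have hlat := commute_lattice ((Commute.refl h).pow_right j) hc r2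
  have hcomm : ∀ k l : ℕ, Commute (h ^ k * u * (h ^ k)⁻¹) (h ^ l * u * (h ^ l)⁻¹) := fun k l => by
    have := (hlat ((l : ℤ) - k)).map (MulAut.conj (h ^ k))
    simp only [MulAut.conj_apply] at this
    rwa [show h ^ k * (h ^ ((l : ℤ) - k) * u * (h ^ ((l : ℤ) - k))⁻¹) * (h ^ k)⁻¹ = h ^ l * u * (h ^ l)⁻¹ by group] at this
  obtain ⟨ev, hadd, hmul, -, hone, hpv⟩ := exists_ev (p := 2) (by rw [sq, r1]) hcomm
  have hev0 : ev 0 = 1 := by
    have := hadd 0 0
    rw [add_zero] at this
    exact mul_eq_left.1 this.symm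
  have hpow : ∀ k : ℕ, ev (Polynomial.X ^ k) = h ^ k * u * (h ^ k)⁻¹ := fun k => by
    induction k with
    | zero => simp [hone]
    | succ k ih => rw [pow_succ', hmul, ih, pow_succ']; group
  have hsub : ∀ P Q, ev P = ev Q → ev (P - Q) = 1 := fun P Q e => by
    have := hadd (P - Q) Q
    rw [sub_add_cancel, e] at this
    exact mul_eq_right.1 this.symm
  set M := minpoly (ZMod 2) g
  rw [hpv, pow_one, comp_X] at r3
  have h1 : ev ((Polynomial.X - 1) * M) = 1 := by
    rw [sub_mul, one_mul]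
    refine hsub _ _ ?_
    rw [hmul, r3]; group
  set T : (ZMod 2)[X] := Polynomial.X ^ j - (1 + Polynomial.X)
  have h2 : ev T = 1 := by
    refine hsub _ _ ?_
    rw [hpow, r2, hadd, hone]
    have := hpow 1
    rw [pow_one, pow_one] at this
    rw [this]
  obtain ⟨S, hS⟩ : (Polynomial.X - C 1) ∣ T - C (T.eval 1) := Polynomial.X_sub_C_dvd_sub_C_eval
  rw [map_one] at hS
  have hT : T.eval 1 = 1 := by simp only [T, eval_sub, eval_add, eval_pow, eval_X, eval_one, one_pow]; rw [show (1 : ZMod 2) + 1 = 0 from rfl, sub_zero]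
  have hM : ev M = 1 := by
    rw [show M = M * T + (-S) * ((Polynomial.X - 1) * M) by
      rw [hT, map_one] at hS; linear_combination M * hS.symm]
    rw [hadd, ev_mul ev hadd hmul h2, ev_mul ev hadd hmul h1, one_mul]
  exact ⟨exists_isUnip hg ev hadd hmul hone hM, by rw [← r3, hM]⟩

end CfsgLib.SL2Pres
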