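import Cfsg.Agent.Lib.SL2Pres.Core
import Cfsg.Agent.Lib.SL2Pres.Fields
import Cfsg.Agent.Lib.ClassicalLinear.Card

/-!
The relation lists for `SL₂(F)` and `PSL₂(F)` on three generators, and the presentations.
-/

set_option autoImplicit false
set_option linter.unusedSectionVars false

namespace CfsgLib.SL2Pres

open Polynomial
open scoped MatrixGroups

universe u

variable {F : Type u} [Field F] [Finite F] {p : ℕ} [Fact p.Prime] [Algebra (ZMod p) F]

local notation "gU" => (FreeGroup.of (0 : Fin 3) : FreeGroup (Fin 3))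
local notation "gH" => (FreeGroup.of (1 : Fin 3) : FreeGroup (Fin 3))
local notation "gW" => (FreeGroup.of (2 : Fin 3) : FreeGroup (Fin 3))

/-- In a presented group the relators evaluate to `1` at the generators. -/
theorem lift_of_eq_one {α : Type*} {R : Set (FreeGroup α)} {r : FreeGroup α} (hr : r ∈ R) :
    FreeGroup.lift (PresentedGroup.of (rels := R)) r = 1 := by
  have h : FreeGroup.lift (PresentedGroup.of (rels := R)) = PresentedGroup.mk R :=
    FreeGroup.ext_hom _ _ fun a => by simp [PresentedGroup.of]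
  rw [h]
  exact PresentedGroup.one_of_mem hr

theorem range_three {G : Type*} (f : Fin 3 → G) : Set.range f = {f 0, f 1, f 2} := by
  ext x
  simp only [Set.mem_range, Set.mem_insert_iff, Set.mem_singleton_iff, Fin.exists_fin_succ, Fin.succ_zero_eq_one,
    Fin.succ_one_eq_two, IsEmpty.exists_iff, or_false, eq_comm]

theorem smul_char (t : F) : p • t = 0 := by
  haveI : CharP F p := (Algebra.charP_iff (ZMod p) F p).1 (ZMod.charP p)
  rw [nsmul_eq_mul, CharP.cast_eq_zero, zero_mul]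

/-- The standard generators. -/
def fS (ω : Fˣ) : Fin 3 → SL(2, F) := ![xS 1, dS ω, wS]

theorem closure_fS (p : ℕ) [Fact p.Prime] [Algebra (ZMod p) F] {ω : Fˣ} (hω : ∀ x : Fˣ, x ∈ Subgroup.zpowers ω) :
    Subgroup.closure (Set.range (fS ω)) = ⊤ := by
  refine closure_SL (fun t => ?_) (Subgroup.subset_closure ⟨2, rfl⟩)
  obtain ⟨P, hP⟩ := aeval_sq_surjective (p := p) hω t
  rw [← hP, ← pow_one ((ω : F) ^ 2), ← (isUnip_SL ω).pval_eq 1 P]
  exact pval_mem P _ fun k => mul_mem (mul_mem (pow_mem (Subgroup.subset_closure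
    (show dS ω ∈ Set.range (fS ω) from ⟨1, rfl⟩)) _) (Subgroup.subset_closure ⟨0, rfl⟩))
    (inv_mem (pow_mem (Subgroup.subset_closure (show dS ω ∈ Set.range (fS ω) from ⟨1, rfl⟩)) _))

/-- Relators between `u` and `h` in odd characteristic. -/
theorem exists_borel_odd (hp : p ≠ 2) {ω : Fˣ} (hω : ∀ x : Fˣ, x ∈ Subgroup.zpowers ω) :
    ∃ B : List (FreeGroup (Fin 3)), B.length ≤ 4 ∧
      (∀ r ∈ B, FreeGroup.lift (fS ω) r = 1) ∧
      ∀ (G : Type) [Group G] (f : Fin 3 → G), (∀ r ∈ B, FreeGroup.lift f r = 1) → f 1 ^ orderOf ω = 1 →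
        ∃ X : F → G, IsUnip (f 0) (f 1) ((ω : F) ^ 2) X := by
  classical
  haveI : Module.Finite (ZMod p) F := Module.Finite.of_finite
  set g : F := (ω : F) ^ 2 with hgdef
  have hg := aeval_sq_surjective (p := p) hω
  have hS : IsUnip (xS 1) (dS ω) g (xS : F → SL(2, F)) := isUnip_SL ω
  set n := Module.finrank (ZMod p) F with hn
  have hn0 : 0 < n := Module.finrank_pos
  rcases Nat.lt_or_ge n 3 with hn3 | hn3
  · have hdeg : (Polynomial.X ^ n - minpoly (ZMod p) g).natDegree < n := by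
      have hint : IsIntegral (ZMod p) g := IsIntegral.of_finite _ g
      have hd := natDegree_minpoly_eq hg
      have hlt : (Polynomial.X ^ n - minpoly (ZMod p) g).degree < (n : WithBot ℕ) := by
        refine lt_of_lt_of_eq (Polynomial.degree_sub_lt_left ?_ (pow_ne_zero _ Polynomial.X_ne_zero) ?_)
          (Polynomial.degree_X_pow n)
        · rw [Polynomial.degree_X_pow, Polynomial.degree_eq_natDegree (minpoly.ne_zero hint), hd]
        · rw [Polynomial.leadingCoeff_X_pow, (minpoly.monic hint).leadingCoeff]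
      rcases eq_or_ne (Polynomial.X ^ n - minpoly (ZMod p) g) 0 with h0 | h0
      · rw [h0, natDegree_zero]; exact hn0
      · exact (Polynomial.natDegree_lt_iff_degree_lt h0).2 hlt
    refine ⟨[gU ^ p, gU * (gH * gU * gH⁻¹) * gU⁻¹ * (gH * gU * gH⁻¹)⁻¹,
      gH ^ n * gU * (gH ^ n)⁻¹ * (pval gU gH 1 (Polynomial.X ^ n - minpoly (ZMod p) g))⁻¹],
      by simp, ?_, fun G _ f hf _ => ?_⟩
    · simp only [List.forall_mem_cons, List.not_mem_nil, false_implies, implies_true, and_true, map_mul, map_inv,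
        map_pow, map_pval, FreeGroup.lift_apply_of]
      show xS 1 ^ p = 1 ∧ xS 1 * (dS ω * xS 1 * (dS ω)⁻¹) * (xS 1)⁻¹ * (dS ω * xS 1 * (dS ω)⁻¹)⁻¹ = 1 ∧
        dS ω ^ n * xS 1 * (dS ω ^ n)⁻¹ * (pval (xS 1) (dS ω) 1 _)⁻¹ = 1
      refine ⟨?_, ?_, ?_⟩
      · rw [← hS.nsmul, smul_char, hS.zero]
      · rw [hS.conj, mul_one, hS.comm 1 g, mul_inv_cancel_right, mul_inv_cancel]
      · rw [hS.pow_conj, hS.pval_eq, pow_one, map_sub, map_pow, aeval_X, minpoly.aeval, sub_zero, mul_one,
          mul_inv_cancel]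
    · simp only [List.forall_mem_cons, List.not_mem_nil, false_implies, implies_true, and_true, map_mul, map_inv,
        map_pow, map_pval, FreeGroup.lift_apply_of] at hf
      obtain ⟨h1, h2, h3⟩ := hf
      exact unip_small hg (by omega) hdeg h1 (commutatorElement_eq_one_iff_commute.1 h2) (mul_inv_eq_one.1 h3)
  · obtain ⟨a, i, j, hi, hj, ha⟩ := exists_good_square hp hn3 hω
    have hord : orderOf ω = Nat.card F - 1 := by
      rw [orderOf_eq_card_of_forall_mem_zpowers hω, Nat.card_units]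
    have hLp : ((orderOf ω : ℕ) : ZMod p) ≠ 0 := by
      rw [hord, Module.natCard_eq_pow_finrank (K := ZMod p), Nat.card_zmod,
        Nat.cast_sub (Nat.one_le_pow _ _ (Fact.out : p.Prime).pos), Nat.cast_pow, ZMod.natCast_self,
        zero_pow hn0.ne', zero_sub, Nat.cast_one]
      exact neg_ne_zero.2 one_ne_zero
    have haL : a ^ orderOf ω = 1 := by
      rw [← hi, pow_right_comm _ i, pow_right_comm _ 2, ← Units.val_pow_eq_pow_val,
        pow_orderOf_eq_one, Units.val_one, one_pow, one_pow]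
    obtain ⟨G₀, hG1, hG2⟩ := exists_cofactor (g := g) ha hLp haL
    refine ⟨[gU ^ p, gU * (gH ^ i * gU * (gH ^ i)⁻¹) * gU⁻¹ * (gH ^ i * gU * (gH ^ i)⁻¹)⁻¹,
      gH ^ j * gU * (gH ^ j)⁻¹ * (gU * (gH ^ i * gU * (gH ^ i)⁻¹))⁻¹,
      gH * gU * gH⁻¹ * (pval gU gH i G₀)⁻¹], by simp, ?_, fun G _ f hf hL => ?_⟩
    · simp only [List.forall_mem_cons, List.not_mem_nil, false_implies, implies_true, and_true, map_mul, map_inv,
        map_pow, map_pval, FreeGroup.lift_apply_of]
      show xS 1 ^ p = 1 ∧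
        xS 1 * (dS ω ^ i * xS 1 * (dS ω ^ i)⁻¹) * (xS 1)⁻¹ * (dS ω ^ i * xS 1 * (dS ω ^ i)⁻¹)⁻¹ = 1 ∧
        dS ω ^ j * xS 1 * (dS ω ^ j)⁻¹ * (xS 1 * (dS ω ^ i * xS 1 * (dS ω ^ i)⁻¹))⁻¹ = 1 ∧
        dS ω * xS 1 * (dS ω)⁻¹ * (pval (xS 1) (dS ω) i G₀)⁻¹ = 1
      refine ⟨?_, ?_, ?_, ?_⟩
      · rw [← hS.nsmul, smul_char, hS.zero]
      · rw [hS.pow_conj, mul_one, hS.comm 1 (g ^ i), mul_inv_cancel_right, mul_inv_cancel]
      · rw [hS.pow_conj, hS.pow_conj, mul_one, mul_one, ← hS.add, hi, hj, mul_inv_cancel]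
      · rw [hS.conj, mul_one, hS.pval_eq, hi, hG1, mul_inv_cancel]
    · simp only [List.forall_mem_cons, List.not_mem_nil, false_implies, implies_true, and_true, map_mul, map_inv,
        map_pow, map_pval, FreeGroup.lift_apply_of] at hf
      obtain ⟨h1, h2, h3, h4⟩ := hf
      exact unip_large hg (orderOf_pos ω) hLp haL hG1 hG2 hL h1 (commutatorElement_eq_one_iff_commute.1 h2)
        (mul_inv_eq_one.1 h3) (mul_inv_eq_one.1 h4)

/-- Odd characteristic: `SL₂` on at most eight relators, `PSL₂` on at most nine. -/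
theorem presentation_odd (hp : p ≠ 2) :
    (∃ R : Finset (FreeGroup (Fin 3)), R.card ≤ 9 ∧
      Nonempty (PresentedGroup (↑R : Set (FreeGroup (Fin 3))) ≃* SL(2, F))) ∧
    ∃ R : Finset (FreeGroup (Fin 3)), R.card ≤ 9 ∧
      Nonempty (PresentedGroup (↑R : Set (FreeGroup (Fin 3))) ≃* PSL(2, F)) := by
  classical
  haveI : Fintype F := Fintype.ofFinite F
  haveI : CharP F p := (Algebra.charP_iff (ZMod p) F p).1 (ZMod.charP p)
  obtain ⟨ω, hω⟩ := IsCyclic.exists_generator (α := Fˣ)
  set q := Fintype.card F with hq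
  have hord : orderOf ω = q - 1 := by
    rw [orderOf_eq_card_of_forall_mem_zpowers hω, Nat.card_units, Nat.card_eq_fintype_card]
  obtain ⟨N, hqN⟩ : ∃ N, q = 2 * N + 1 := FiniteField.odd_card_of_char_ne_two (by rwa [ringChar.eq F p]) |>
    fun h => Nat.odd_iff.2 h
  have hN1 : 1 ≤ N := by have := Fintype.one_lt_card (α := F); omega
  have hωN : ω ^ N = -1 := by
    have h1 : ((ω ^ N : Fˣ) : F) * (ω ^ N : Fˣ) = 1 := by
      rw [← Units.val_mul, ← pow_add, show N + N = orderOf ω by omega, pow_orderOf_eq_one, Units.val_one]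
    rcases mul_self_eq_one_iff.1 h1 with h | h
    · exact absurd (Nat.le_of_dvd hN1 (orderOf_dvd_of_pow_eq_one (Units.ext h))) (by omega)
    · exact Units.ext (by rw [h]; simp)
  obtain ⟨k, hk⟩ := exists_pow_eq hω (negInv ω)
  obtain ⟨Pω, hPω⟩ := aeval_sq_surjective (p := p) hω (ω : F)
  obtain ⟨Pc, hPc⟩ := aeval_sq_surjective (p := p) hω ((negInv ω : Fˣ) : F)
  obtain ⟨B, hB4, hBS, hBG⟩ := exists_borel_odd (F := F) hp hω
  let rWH : FreeGroup (Fin 3) := gW * gH * gW⁻¹ * gH
  let r1 : FreeGroup (Fin 3) := gW * gU * gW * (gU⁻¹ * gH ^ N * gW * gU⁻¹)⁻¹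
  let rν : FreeGroup (Fin 3) := gW * pval gU gH 1 Pω * gW *
    (pval gU gH 1 Pc * gH ^ k * gW * pval gU gH 1 Pc)⁻¹
  -- the identities in `SL₂`
  have hS := isUnip_SL (F := F) ω
  have hWH : FreeGroup.lift (fS ω) rWH = 1 := by
    simp only [rWH, map_mul, map_inv, FreeGroup.lift_apply_of]
    show wS * dS ω * wS⁻¹ * dS ω = 1
    rw [wS_dS, ← map_mul, inv_mul_cancel, map_one]
  have h1S : FreeGroup.lift (fS ω) r1 = 1 := by
    simp only [r1, map_mul, map_inv, map_pow, FreeGroup.lift_apply_of]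
    show wS * xS 1 * wS * ((xS 1)⁻¹ * dS ω ^ N * wS * (xS 1)⁻¹)⁻¹ = 1
    have h := wS_xS_wS (1 : Fˣ)
    rw [show negInv (1 : Fˣ) = -1 by simp [negInv], Units.val_neg, Units.val_one, hS.neg] at h
    rw [h, ← map_pow, hωN, mul_inv_cancel]
  have hνS : FreeGroup.lift (fS ω) rν = 1 := by
    simp only [rν, map_mul, map_inv, map_pow, map_pval, FreeGroup.lift_apply_of]
    show wS * pval (xS 1) (dS ω) 1 Pω * wS *
      (pval (xS 1) (dS ω) 1 Pc * dS ω ^ k * wS * pval (xS 1) (dS ω) 1 Pc)⁻¹ = 1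
    rw [hS.pval_eq, hS.pval_eq, pow_one, hPω, hPc, ← map_pow, hk, wS_xS_wS, mul_inv_cancel]
  -- the bound for a group with these relations
  have hbound : ∀ (G : Type) [Group G] (f : Fin 3 → G), Subgroup.closure (Set.range f) = ⊤ →
      (∀ r ∈ B, FreeGroup.lift f r = 1) → FreeGroup.lift f rWH = 1 → FreeGroup.lift f r1 = 1 →
      FreeGroup.lift f rν = 1 → f 2 * f 2 = f 1 ^ N →
      Finite G ∧ Nat.card G ≤ orderOf (f 1) * q * (q + 1) ∧ f 1 ^ (2 * N) = 1 := by
    intro G _ f hgen hfB hfWH hf1 hfν hww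
    simp only [rWH, r1, rν, map_mul, map_inv, map_pow, map_pval, FreeGroup.lift_apply_of] at hfWH hf1 hfν
    have hwh : f 2 * f 1 * (f 2)⁻¹ = (f 1)⁻¹ := eq_inv_of_mul_eq_one_left hfWH
    have h2N : f 1 ^ (2 * N) = 1 := by
      have e : f 2 * f 1 ^ N * (f 2)⁻¹ = (f 1 ^ N)⁻¹ := by
        rw [← MulAut.conj_apply, map_pow, MulAut.conj_apply, hwh, inv_pow]
      rw [← hww, ← mul_assoc, mul_inv_cancel_right, hww] at e
      rw [two_mul, pow_add]
      nth_rewrite 1 [e]
      exact inv_mul_cancel _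
    have hL : f 1 ^ orderOf ω = 1 := by rw [hord, show q - 1 = 2 * N by omega, h2N]
    obtain ⟨X, hX⟩ := hBG G f hfB hL
    rw [hX.pval_eq, hX.pval_eq, pow_one, hPω, hPc] at hfν
    rw [range_three] at hgen
    obtain ⟨h1, h2⟩ := card_le_of_rels hω hgen hX hωN hk hL hwh hww (mul_inv_eq_one.1 hf1)
      (Or.inr (mul_inv_eq_one.1 hfν))
    rw [Nat.card_eq_fintype_card (α := F)] at h2
    exact ⟨h1, h2, h2N⟩
  refine ⟨?_, ?_⟩
  · set R := B ++ [rWH, gW * gW * (gH ^ N)⁻¹, r1, rν] with hR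
    refine exists_presentation R (fS ω) ?_ (closure_fS p hω) ?_ (by simp [hR]; omega)
    · intro r hr
      simp only [hR, List.mem_append, List.mem_cons, List.not_mem_nil, or_false] at hr
      rcases hr with hr | rfl | rfl | rfl | rfl
      · exact hBS r hr
      · exact hWH
      · simp only [map_mul, map_inv, map_pow, FreeGroup.lift_apply_of]
        show wS * wS * (dS ω ^ N)⁻¹ = 1
        rw [← map_pow, hωN, wS_mul_wS, mul_inv_cancel]
      · exact h1S
      · exact hνS
    · have hf : ∀ r ∈ R, FreeGroup.lift (PresentedGroup.of (rels := {r | r ∈ R})) r = 1 := fun r hr =>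
        lift_of_eq_one hr
      simp only [hR, List.mem_append, List.mem_cons, List.not_mem_nil, or_false] at hf
      have hw := hf (gW * gW * (gH ^ N)⁻¹) (by simp)
      simp only [map_mul, map_inv, map_pow, FreeGroup.lift_apply_of] at hw
      obtain ⟨h1, h2, h3⟩ := hbound _ _ (PresentedGroup.closure_range_of _) (fun r hr => hf r (Or.inl hr))
        (hf rWH (by simp)) (hf r1 (by simp)) (hf rν (by simp)) (mul_inv_eq_one.1 hw)
      refine ⟨h1, h2.trans ?_⟩
      have h4 := Nat.le_of_dvd (by omega) (orderOf_dvd_of_pow_eq_one h3)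
      rw [ClassicalLinear.card_SL_two hq.symm]
      calc _ ≤ 2 * N * q * (q + 1) := by gcongr
        _ = q * (q ^ 2 - 1) := by
          rw [hqN, show (2 * N + 1) ^ 2 = 2 * N * (2 * N + 2) + 1 by ring, Nat.add_sub_cancel]; ring
  · let π : SL(2, F) →* PSL(2, F) := QuotientGroup.mk' _
    set R := B ++ [rWH, gW * gW, gH ^ N, r1, rν] with hR
    have hlift : ∀ r, FreeGroup.lift (fun i => π (fS ω i)) r = π (FreeGroup.lift (fS ω) r) := fun r => by
      have : FreeGroup.lift (fun i => π (fS ω i)) = π.comp (FreeGroup.lift (fS ω)) :=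
        FreeGroup.ext_hom _ _ fun a => by simp
      rw [this]; rfl
    have hneg : π (dS (-1)) = 1 := by
      refine (QuotientGroup.eq_one_iff _).2 (Subgroup.mem_center_iff.2 fun x => ?_)
      refine Matrix.SpecialLinearGroup.ext _ _ fun i j => ?_
      fin_cases i <;> fin_cases j <;>
        simp [coe_dS, Matrix.SpecialLinearGroup.coe_mul, Matrix.mul_apply, Fin.sum_univ_two]
    refine exists_presentation R (fun i => π (fS ω i)) ?_ ?_ ?_ (by simp [hR]; omega)
    · intro r hr
      rw [hlift]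
      simp only [hR, List.mem_append, List.mem_cons, List.not_mem_nil, or_false] at hr
      rcases hr with hr | rfl | rfl | rfl | rfl | rfl
      · rw [hBS r hr, map_one]
      · rw [hWH, map_one]
      · simp only [map_mul, FreeGroup.lift_apply_of]
        show π wS * π wS = 1
        rw [← map_mul, wS_mul_wS, hneg]
      · simp only [map_pow, FreeGroup.lift_apply_of]
        show π (dS ω) ^ N = 1
        rw [← map_pow, ← map_pow, hωN, hneg]
      · rw [h1S, map_one]
      · rw [hνS, map_one]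
    · rw [Set.range_comp' π (fS ω), ← MonoidHom.map_closure, closure_fS p hω, ← MonoidHom.range_eq_map]
      exact MonoidHom.range_eq_top.2 (QuotientGroup.mk'_surjective _)
    · have hf : ∀ r ∈ R, FreeGroup.lift (PresentedGroup.of (rels := {r | r ∈ R})) r = 1 := fun r hr =>
        lift_of_eq_one hr
      simp only [hR, List.mem_append, List.mem_cons, List.not_mem_nil, or_false] at hf
      have hw := hf (gW * gW) (by simp)
      have hh := hf (gH ^ N) (by simp)
      simp only [map_mul, map_pow, FreeGroup.lift_apply_of] at hw hh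
      obtain ⟨h1, h2, -⟩ := hbound _ _ (PresentedGroup.closure_range_of _) (fun r hr => hf r (Or.inl hr))
        (hf rWH (by simp)) (hf r1 (by simp)) (hf rν (by simp)) (hw.trans hh.symm)
      refine ⟨h1, h2.trans ?_⟩
      have h4 := Nat.le_of_dvd (by omega) (orderOf_dvd_of_pow_eq_one hh)
      have h5 := ClassicalLinear.card_PSL_two_of_odd hq.symm ⟨N, hqN⟩
      rw [hqN, show (2 * N + 1) ^ 2 = 2 * N * (2 * N + 2) + 1 by ring, Nat.add_sub_cancel,
        show (2 * N + 1) * (2 * N * (2 * N + 2)) = 2 * (N * (2 * N + 1) * (2 * N + 1 + 1)) by ring] at h5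
      rw [Nat.eq_of_mul_eq_mul_left (by norm_num) h5, hqN]
      gcongr

/-- Characteristic two: `SL₂` on at most five relators. -/
theorem presentation_even [Fact (2 : ℕ).Prime] [Algebra (ZMod 2) F] [CharP F 2] :
    ∃ R : Finset (FreeGroup (Fin 3)), R.card ≤ 5 ∧
      Nonempty (PresentedGroup (↑R : Set (FreeGroup (Fin 3))) ≃* SL(2, F)) := by
  classical
  haveI : Fintype F := Fintype.ofFinite F
  obtain ⟨ω, hω⟩ := IsCyclic.exists_generator (α := Fˣ)
  set q := Fintype.card F with hq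
  have hq1 : 1 < q := Fintype.one_lt_card
  have hord : orderOf ω = q - 1 := by
    rw [orderOf_eq_card_of_forall_mem_zpowers hω, Nat.card_units, Nat.card_eq_fintype_card]
  obtain ⟨k, hk⟩ := exists_pow_eq hω (negInv ω)
  have hsq : ∀ t : Fˣ, IsSquare t := fun t => by
    obtain ⟨y, hy⟩ := FiniteField.isSquare_of_char_two (ringChar.eq F 2) (t : F)
    have hy0 : y ≠ 0 := fun h => t.ne_zero (by rw [hy, h, mul_zero])
    exact ⟨Units.mk0 y hy0, Units.ext hy⟩
  have hneg1 : ω ^ 0 = (-1 : Fˣ) := Units.ext (by simp [CharTwo.neg_eq])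
  have hS := isUnip_SL (F := F) ω
  set g : F := (ω : F) ^ 2 with hgdef
  have hg := aeval_sq_surjective (p := 2) hω
  let rWH : FreeGroup (Fin 3) := gW * gH * gW⁻¹ * gH
  let r3 : FreeGroup (Fin 3) := (gU * gW) ^ 3 * (gW * gW)⁻¹
  have hWH : FreeGroup.lift (fS ω) rWH = 1 := by
    simp only [rWH, map_mul, map_inv, FreeGroup.lift_apply_of]
    show wS * dS ω * wS⁻¹ * dS ω = 1
    rw [wS_dS, ← map_mul, inv_mul_cancel, map_one]
  have hone : (-1 : Fˣ) = 1 := Units.ext (by simp [CharTwo.neg_eq])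
  have hxx : xS (1 : F) * xS 1 = 1 := by
    rw [← xS_add, CharTwo.add_self_eq_zero]; exact hS.zero
  have h3S : FreeGroup.lift (fS ω) r3 = 1 := by
    simp only [r3, map_mul, map_inv, map_pow, FreeGroup.lift_apply_of]
    show (xS 1 * wS) ^ 3 * (wS * wS)⁻¹ = 1
    have h := wS_xS_wS (1 : Fˣ)
    rw [show negInv (1 : Fˣ) = 1 by simp [negInv, hone], Units.val_one, map_one, mul_one] at h
    rw [wS_mul_wS, hone, map_one, inv_one, mul_one, pow_succ, pow_two,
      show xS (1 : F) * wS * (xS 1 * wS) * (xS 1 * wS) = xS 1 * (wS * xS 1 * wS) * xS 1 * wS by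
        simp only [mul_assoc], h,
      show xS (1 : F) * (xS 1 * wS * xS 1) * xS 1 * wS = xS 1 * xS 1 * wS * (xS 1 * xS 1) * wS by
        simp only [mul_assoc], hxx, one_mul, mul_one, wS_mul_wS, hone, map_one]
  have hbound : ∀ (G : Type) [Group G] (f : Fin 3 → G), Subgroup.closure (Set.range f) = ⊤ →
      f 0 * f 0 = 1 → FreeGroup.lift f rWH = 1 → FreeGroup.lift f r3 = 1 → f 1 ^ orderOf ω = 1 →
      (∃ X : F → G, IsUnip (f 0) (f 1) g X) → Finite G ∧ Nat.card G ≤ Nat.card SL(2, F) := by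
    intro G _ f hgen hu hfWH hf3 hL hX
    obtain ⟨X, hX⟩ := hX
    simp only [rWH, r3, map_mul, map_inv, map_pow, FreeGroup.lift_apply_of] at hfWH hf3
    have hwh : f 2 * f 1 * (f 2)⁻¹ = (f 1)⁻¹ := eq_inv_of_mul_eq_one_left hfWH
    have hui : (f 0)⁻¹ = f 0 := inv_eq_of_mul_eq_one_right hu
    have h5 : f 0 * f 2 * f 0 * f 2 * f 0 = f 2 := by
      have := mul_inv_eq_one.1 hf3
      rw [pow_succ, pow_two] at this
      refine mul_right_cancel (b := f 2) ?_
      simp only [← mul_assoc] at this ⊢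
      exact this
    have hbraid : f 2 * f 0 * f 2 = f 0 * f 2 * f 0 := by
      have := congrArg (fun z => f 0 * z * f 0) h5
      simp only [← mul_assoc, hu, one_mul] at this
      rw [mul_assoc (f 2 * f 0 * f 2) (f 0), hu, mul_one] at this
      exact this
    have hww : f 2 * f 2 = 1 := by
      have h6 : f 2 = (f 0 * f 2 * f 0) * f 0 * (f 0 * f 2 * f 0)⁻¹ := by
        rw [eq_mul_inv_iff_mul_eq]
        calc f 2 * (f 0 * f 2 * f 0) = (f 2 * f 0 * f 2) * f 0 := by simp only [mul_assoc]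
          _ = _ := by rw [hbraid]
      rw [h6, show ∀ a b : G, a * b * a⁻¹ * (a * b * a⁻¹) = a * (b * b) * a⁻¹ from fun a b => by group,
        hu, mul_one, mul_inv_cancel]
    rw [range_three] at hgen
    obtain ⟨h1, h2⟩ := card_le_of_rels hω hgen hX hneg1 hk hL hwh (by rw [hww, pow_zero])
      (by rw [hbraid, hui, pow_zero, mul_one]) (Or.inl hsq)
    refine ⟨h1, h2.trans ?_⟩
    have h4 := Nat.le_of_dvd (orderOf_pos ω) (orderOf_dvd_of_pow_eq_one hL)
    rw [Nat.card_eq_fintype_card (α := F), ClassicalLinear.card_SL_two hq.symm]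
    calc _ ≤ (q - 1) * q * (q + 1) := by rw [← hord]; gcongr
      _ = q * (q ^ 2 - 1) := by
        obtain ⟨L, hL'⟩ : ∃ L, q = L + 1 := ⟨q - 1, by omega⟩
        rw [hL', show (L + 1) ^ 2 = L * (L + 2) + 1 by ring, Nat.add_sub_cancel, Nat.add_sub_cancel]; ring
  rcases eq_or_ne ω 1 with hω1 | hω1
  · -- the field with two elements
    set R := [gU * gU, gH, rWH, r3] with hR
    refine exists_presentation R (fS ω) ?_ (closure_fS 2 hω) ?_ (by simp [hR])
    · intro r hr
      simp only [hR, List.mem_cons, List.not_mem_nil, or_false] at hr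
      rcases hr with rfl | rfl | rfl | rfl
      · simp only [map_mul, FreeGroup.lift_apply_of]; exact hxx
      · simp only [FreeGroup.lift_apply_of]
        show dS ω = 1
        rw [hω1, map_one]
      · exact hWH
      · exact h3S
    · have hf : ∀ r ∈ R, FreeGroup.lift (PresentedGroup.of (rels := {r | r ∈ R})) r = 1 := fun r hr =>
        lift_of_eq_one hr
      have hu := hf (gU * gU) (by simp [hR])
      have hh := hf gH (by simp [hR])
      simp only [map_mul, FreeGroup.lift_apply_of] at hu hh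
      refine hbound _ _ (PresentedGroup.closure_range_of _) hu (hf rWH (by simp [hR])) (hf r3 (by simp [hR]))
        (by rw [hh, one_pow]) ?_
      have hg1 : g = 1 := by rw [hgdef, hω1, Units.val_one, one_pow]
      rw [← hgdef, hg1] at hg
      rw [hg1]
      have hM : Polynomial.X ^ 1 - minpoly (ZMod 2) (1 : F) = 1 := by rw [minpoly.one, pow_one, sub_sub_cancel]
      refine unip_small hg (n := 1) (Or.inl rfl) (by rw [hM, natDegree_one]; norm_num) (by rw [sq, hu])
        (by rw [hh, one_mul, inv_one, mul_one]) ?_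
      rw [hM, pow_one, hh, one_mul, inv_one, mul_one, pval, natDegree_one]
      simp [ZMod.val_one]
  · have hg1 : g ≠ 1 := fun h => hω1 (by
      obtain ⟨s, hs⟩ := hsq ω
      refine Units.ext ?_
      rw [hgdef, sq] at h
      rcases mul_self_eq_one_iff.1 h with h | h
      · simpa using h
      · simpa [CharTwo.neg_eq] using h)
    obtain ⟨j, hj⟩ : ∃ j : ℕ, g ^ j = 1 + g := by
      have hne : (1 : F) + g ≠ 0 := fun h => hg1 (by rwa [CharTwo.add_eq_zero, eq_comm] at h)
      obtain ⟨s, hs⟩ := hsq (Units.mk0 _ hne)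
      obtain ⟨j, rfl⟩ := exists_pow_eq hω s
      refine ⟨j, ?_⟩
      rw [hgdef, ← pow_mul, mul_comm, pow_mul, sq, ← Units.val_pow_eq_pow_val, ← Units.val_mul, ← hs]
      rfl
    set R := [gU * gU, gH ^ j * gU * (gH ^ j)⁻¹ * (gU * (gH * gU * gH⁻¹))⁻¹,
      pval gU gH 1 (minpoly (ZMod 2) g) * (gH ^ orderOf ω)⁻¹, rWH, r3] with hR
    refine exists_presentation R (fS ω) ?_ (closure_fS 2 hω) ?_ (by simp [hR])
    · intro r hr
      simp only [hR, List.mem_cons, List.not_mem_nil, or_false] at hr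
      rcases hr with rfl | rfl | rfl | rfl | rfl
      · simp only [map_mul, FreeGroup.lift_apply_of]; exact hxx
      · simp only [map_mul, map_inv, map_pow, FreeGroup.lift_apply_of]
        show dS ω ^ j * xS 1 * (dS ω ^ j)⁻¹ * (xS 1 * (dS ω * xS 1 * (dS ω)⁻¹))⁻¹ = 1
        rw [hS.pow_conj, hS.conj, mul_one, mul_one, ← hS.add, hj, mul_inv_cancel]
      · simp only [map_mul, map_inv, map_pow, map_pval, FreeGroup.lift_apply_of]
        show pval (xS 1) (dS ω) 1 (minpoly (ZMod 2) g) * (dS ω ^ orderOf ω)⁻¹ = 1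
        rw [hS.pval_eq, pow_one, minpoly.aeval, hS.zero, ← map_pow, pow_orderOf_eq_one, map_one, inv_one, mul_one]
      · exact hWH
      · exact h3S
    · have hf : ∀ r ∈ R, FreeGroup.lift (PresentedGroup.of (rels := {r | r ∈ R})) r = 1 := fun r hr =>
        lift_of_eq_one hr
      have hu := hf (gU * gU) (by simp [hR])
      have hja := hf (gH ^ j * gU * (gH ^ j)⁻¹ * (gU * (gH * gU * gH⁻¹))⁻¹) (by simp [hR])
      have hMa := hf (pval gU gH 1 (minpoly (ZMod 2) g) * (gH ^ orderOf ω)⁻¹) (by simp [hR])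
      simp only [map_mul, map_inv, map_pow, map_pval, FreeGroup.lift_apply_of] at hu hja hMa
      obtain ⟨hX, hL⟩ := unip_even rfl hg hu (mul_inv_eq_one.1 hja) (mul_inv_eq_one.1 hMa)
      exact hbound _ _ (PresentedGroup.closure_range_of _) hu (hf rWH (by simp [hR])) (hf r3 (by simp [hR])) hL hX

end CfsgLib.SL2Pres
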