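import Mathlib

/-!
Conjugates of `u` under powers of `h`: when they commute, polynomial exponents, and the commutation
lemma from `u^b = u u^a`.
-/

set_option autoImplicit false

namespace CfsgLib.SL2Pres

open Polynomial

/-- The product of the `(h^i)^k`-conjugates of `u` with the coefficients of `P` as exponents. -/
noncomputable def pval {G : Type*} [Group G] {p : ℕ} (u h : G) (i : ℕ) (P : (ZMod p)[X]) : G :=
  ((List.range (P.natDegree + 1)).map fun k => (h ^ (i * k) * u * (h ^ (i * k))⁻¹) ^ (P.coeff k).val).prod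

theorem map_pval {G T : Type*} [Group G] [Group T] {p : ℕ} (f : G →* T) (u h : G) (i : ℕ) (P : (ZMod p)[X]) :
    f (pval u h i P) = pval (f u) (f h) i P := by
  simp only [pval, map_list_prod, List.map_map]
  congr 1
  refine List.map_congr_left fun k _ => ?_
  simp

theorem pval_mem {G : Type*} [Group G] {p : ℕ} {u h : G} {i : ℕ} (P : (ZMod p)[X]) (S : Subgroup G)
    (hS : ∀ k : ℕ, h ^ (i * k) * u * (h ^ (i * k))⁻¹ ∈ S) : pval u h i P ∈ S :=
  Subgroup.list_prod_mem _ fun x hx => by
    obtain ⟨k, -, rfl⟩ := List.mem_map.1 hx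
    exact pow_mem (hS k) _

/-- The commutation lemma: if `u`, `a u a⁻¹` commute and `b u b⁻¹ = u (a u a⁻¹)`, all conjugates of `u` by
elements of the abelian group generated by `a`, `b` commute. -/
theorem commute_lattice {G : Type*} [Group G] {u a b : G} (hab : Commute a b)
    (hc : Commute u (a * u * a⁻¹)) (hb : b * u * b⁻¹ = u * (a * u * a⁻¹)) :
    ∀ i : ℤ, Commute u (a ^ i * u * (a ^ i)⁻¹) := by
  set c : ℤ → G := fun i => a ^ i * u * (a ^ i)⁻¹ with hcdef
  have shift : ∀ (m i j : ℤ), Commute (c i) (c j) → Commute (c (i + m)) (c (j + m)) := by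
    intro m i j hij
    have h1 : ∀ k, c (k + m) = MulAut.conj (a ^ m) (c k) := fun k => by
      simp only [hcdef, MulAut.conj_apply, add_comm k m, zpow_add]
      group
    rw [h1, h1]
    exact hij.map (MulAut.conj (a ^ m))
  have hbc : ∀ i, MulAut.conj b (c i) = c i * c (i + 1) := by
    intro i
    have h1 : b * a ^ i = a ^ i * b := (hab.zpow_left i).eq.symm
    simp only [hcdef, MulAut.conj_apply]
    calc b * (a ^ i * u * (a ^ i)⁻¹) * b⁻¹ = (b * a ^ i) * u * (b * a ^ i)⁻¹ := by group
      _ = a ^ i * (b * u * b⁻¹) * (a ^ i)⁻¹ := by rw [h1]; group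
      _ = _ := by rw [hb, zpow_add, zpow_one]; group
  have c0 : c 0 = u := by simp [hcdef]
  have key : ∀ n : ℕ, ∀ j : ℕ, j ≤ n → Commute (c 0) (c j) := by
    intro n
    induction n with
    | zero =>
      intro j hj
      obtain rfl : j = 0 := by omega
      exact Commute.refl _
    | succ n ih =>
      intro j hj
      rcases Nat.lt_or_ge j (n + 1) with h | h
      · exact ih j (by omega)
      obtain rfl : j = n + 1 := by omega
      rcases Nat.eq_zero_or_pos n with h0 | h0
      · subst h0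
        have := hc
        simpa [hcdef, c0] using this
      have e := (ih n le_rfl).map (MulAut.conj b)
      rw [hbc, hbc, zero_add] at e
      have e01 : Commute (c 0) (c (n : ℤ)) := ih n le_rfl
      have e11 : Commute (c 1) (c (n : ℤ)) := by
        have := shift 1 0 ((n - 1 : ℕ) : ℤ) (ih (n - 1) (by omega))
        rw [zero_add, show (((n - 1 : ℕ) : ℤ) + 1) = (n : ℤ) by omega] at this
        exact this
      have e12 : Commute (c 1) (c ((n : ℤ) + 1)) := by
        have := shift 1 0 (n : ℤ) e01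
        rwa [zero_add] at this
      -- `c 0 c 1` commutes with `c n c (n+1)`, and `c 0` with `c n`
      have e3 : Commute (c 0 * c 1) (c ((n : ℤ) + 1)) := by
        have h1 : Commute (c 0 * c 1) (c (n : ℤ))⁻¹ := (e01.mul_left e11).inv_right
        simpa using h1.mul_right e
      have e4 : Commute (c 0) (c ((n : ℤ) + 1)) := by
        simpa using e3.mul_left e12.inv_left
      push_cast
      exact e4
  intro i
  show Commute u (c i)
  rw [← c0]
  obtain ⟨n, rfl | rfl⟩ := i.eq_nat_or_neg
  · exact key n n le_rfl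
  · have := shift (-(n : ℤ)) 0 (n : ℤ) (key n n le_rfl)
    rw [zero_add, add_neg_cancel] at this
    exact this.symm

/-- Polynomials acting through an endomorphism of an abelian group of exponent `p`. -/
theorem exists_aeval {A : Type*} [AddCommGroup A] {p : ℕ} [Fact p.Prime] (hp : ∀ x : A, p • x = 0)
    (c0 : A →+ A) (x₀ : A) :
    ∃ f : (ZMod p)[X] →+ A, f 1 = x₀ ∧ (∀ P : (ZMod p)[X], f (X * P) = c0 (f P)) ∧
      ∀ (i : ℕ) (P : (ZMod p)[X]), f (P.comp (X ^ i)) =
        ((List.range (P.natDegree + 1)).map fun k => (P.coeff k).val • (⇑c0)^[i * k] x₀).sum := by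
  haveI : Module (ZMod p) A := AddCommGroup.zmodModule hp
  let c : Module.End (ZMod p) A := c0.toZModLinearMap p
  have hck : ∀ k : ℕ, (c ^ k) x₀ = (⇑c0)^[k] x₀ := fun k => by
    rw [Module.End.pow_apply]; rfl
  refine ⟨{ toFun := fun P => aeval c P x₀, map_zero' := by simp, map_add' := fun P Q => by simp }, by simp,
    fun P => ?_, fun i P => ?_⟩
  · show aeval c (X * P) x₀ = c0 (aeval c P x₀)
    rw [map_mul, aeval_X]
    rfl
  · show aeval c (P.comp (X ^ i)) x₀ = _
    rw [aeval_comp, map_pow, aeval_X, aeval_eq_sum_range, LinearMap.sum_apply,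
      ← List.sum_toFinset _ List.nodup_range, List.toFinset_range]
    refine Finset.sum_congr rfl fun k _ => ?_
    rw [LinearMap.smul_apply, ← pow_mul, hck]
    conv_lhs => rw [← ZMod.natCast_zmod_val (P.coeff k), Nat.cast_smul_eq_nsmul]

/-- Polynomial exponents. -/
theorem exists_ev {G : Type*} [Group G] {p : ℕ} [Fact p.Prime] {u h : G}
    (hu : u ^ p = 1) (hcomm : ∀ k l : ℕ, Commute (h ^ k * u * (h ^ k)⁻¹) (h ^ l * u * (h ^ l)⁻¹)) :
    ∃ ev : (ZMod p)[X] → G, (∀ P Q, ev (P + Q) = ev P * ev Q) ∧ (∀ P, ev (X * P) = h * ev P * h⁻¹) ∧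
      (∀ P Q, Commute (ev P) (ev Q)) ∧ ev 1 = u ∧
      (∀ i P, pval u h i P = ev (P.comp (X ^ i))) := by
  classical
  set S : Set G := Set.range fun k : ℕ => h ^ k * u * (h ^ k)⁻¹ with hS
  set U := Subgroup.closure S with hU
  haveI : IsMulCommutative U := Subgroup.isMulCommutative_closure
    (by rintro _ ⟨k, rfl⟩ _ ⟨l, rfl⟩; exact hcomm k l)
  letI : CommGroup U := { (inferInstance : Group U) with mul_comm := fun x y => mul_comm' x y }
  have hp : ∀ x : U, x ^ p = 1 := by
    rintro ⟨x, hx⟩
    induction hx using Subgroup.closure_induction with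
    | mem y hy =>
      obtain ⟨k, rfl⟩ := hy
      refine Subtype.ext ?_
      show (h ^ k * u * (h ^ k)⁻¹) ^ p = 1
      rw [conj_pow, hu, mul_one, mul_inv_cancel]
    | one => exact one_pow _
    | mul y z hy hz iy iz =>
      rw [show (⟨y * z, _⟩ : U) = ⟨y, hy⟩ * ⟨z, hz⟩ from rfl, mul_pow, iy, iz, mul_one]
    | inv y hy iy =>
      rw [show (⟨y⁻¹, _⟩ : U) = (⟨y, hy⟩ : U)⁻¹ from rfl, inv_pow, iy, inv_one]
  have hmem : ∀ x ∈ U, h * x * h⁻¹ ∈ U := by
    intro x hx
    induction hx using Subgroup.closure_induction with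
    | mem y hy =>
      obtain ⟨k, rfl⟩ := hy
      exact Subgroup.subset_closure ⟨k + 1, by simp only [pow_succ']; group⟩
    | one => rw [mul_one, mul_inv_cancel]; exact one_mem U
    | mul y z _ _ iy iz => rw [show h * (y * z) * h⁻¹ = (h * y * h⁻¹) * (h * z * h⁻¹) by group]; exact mul_mem iy iz
    | inv y _ iy => rw [show h * y⁻¹ * h⁻¹ = (h * y * h⁻¹)⁻¹ by group]; exact inv_mem iy
  let c0 : Additive U →+ Additive U :=
    { toFun := fun x => Additive.ofMul ⟨h * (x.toMul : G) * h⁻¹, hmem _ x.toMul.2⟩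
      map_zero' := Subtype.ext (show h * 1 * h⁻¹ = 1 by group)
      map_add' := fun x y => Subtype.ext (by
        show h * ((x.toMul : G) * (y.toMul : G)) * h⁻¹ = h * (x.toMul : G) * h⁻¹ * (h * (y.toMul : G) * h⁻¹)
        group) }
  let u₀ : Additive U := Additive.ofMul ⟨u, Subgroup.subset_closure ⟨0, by simp⟩⟩
  obtain ⟨f, h1, hX, hcomp⟩ := exists_aeval (fun x : Additive U => congrArg Additive.ofMul (hp x.toMul)) c0 u₀
  have hck : ∀ k : ℕ, (((⇑c0)^[k] u₀).toMul : G) = h ^ k * u * (h ^ k)⁻¹ := by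
    intro k
    induction k with
    | zero => simp [u₀]
    | succ k ih =>
      rw [Function.iterate_succ_apply']
      show h * (((⇑c0)^[k] u₀).toMul : G) * h⁻¹ = _
      rw [ih, pow_succ']
      group
  refine ⟨fun P => ((f P).toMul : G), fun P Q => by simp [map_add], fun P => ?_, fun P Q => ?_, ?_, ?_⟩
  · show ((f (X * P)).toMul : G) = _
    rw [hX]
    rfl
  · exact congrArg Subtype.val (mul_comm (f P).toMul (f Q).toMul)
  · show ((f 1).toMul : G) = u
    rw [h1]; rfl
  · intro i P
    show _ = ((f (P.comp (X ^ i))).toMul : G)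
    rw [hcomp]
    simp only [toMul_list_sum, List.map_map]
    rw [← Subgroup.coe_subtype, map_list_prod, List.map_map, pval]
    congr 1
    refine List.map_congr_left fun k _ => ?_
    show _ = ((((P.coeff k).val • (⇑c0)^[i * k] u₀).toMul : U) : G)
    rw [toMul_nsmul, SubmonoidClass.coe_pow, hck]

end CfsgLib.SL2Pres
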